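-- A solvable group `G = K⟨x⟩` of odd order, `x` of prime order `r ∤ |K|` acting fixed point
-- freely on `F(K)`: then `[K, x] ≤ F(K)`.
import Mathlib
import Cfsg.Prelude.Def_OddOrderLocal
import Cfsg.Agent.Lib.Helper1.FittingOmega
import Cfsg.Agent.Lib.Helper1.FittingPrimary
import Cfsg.Agent.Lib.Helper21.Fit
import Cfsg.Agent.Lib.Helper23.Transport
import Cfsg.Agent.Lib.Helper55.Cores
import Cfsg.Agent.Lib.Helper61.Norm
import Cfsg.Agent.Lib.Helper71.Fitting
import Cfsg.Agent.Lib.Helper97.HHSect
import Cfsg.Agent.Lib.Helper97.HHSylow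

set_option autoImplicit false

namespace Cfsg.Agent.Lib.Helper97.HH

universe u

theorem fitting_prime_order {G : Type u} [Group G] [Finite G] [Group.IsSolvable G]
    (hodd : Odd (Nat.card G)) (K : Subgroup G) [hKn : K.Normal] (x : G) {r : ℕ} (hr : r.Prime)
    (hxr : x ^ r = 1) (hrK : ¬ r ∣ Nat.card K) (hKx : K ⊔ Subgroup.zpowers x = ⊤)
    (hfix : ∀ f ∈ Cfsg.fittingOf K, x * f = f * x → f = 1) :
    ∀ k ∈ K, x * k * x⁻¹ * k⁻¹ ∈ Cfsg.fittingOf K := by
  classical
  have hfr : Fact r.Prime := ⟨hr⟩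
  haveI hFn : (Cfsg.fittingOf K).Normal := by
    unfold Cfsg.fittingOf
    exact ConjAct.normal_of_characteristic_of_normal
  have hFK : Cfsg.fittingOf K ≤ K := by
    unfold Cfsg.fittingOf
    exact Subgroup.map_subtype_le _
  have hrKcop : Nat.Coprime r (Nat.card K) := (Nat.Prime.coprime_iff_not_dvd hr).mpr hrK
  have hordK : ∀ c ∈ K, orderOf c ∣ Nat.card K := by
    intro c hc
    have h5 : orderOf (⟨c, hc⟩ : ↥K) ∣ Nat.card K := orderOf_dvd_natCard _
    rwa [Subgroup.orderOf_mk] at h5
  -- the primary components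
  let L : ℕ → Subgroup G := fun s => (Cfsg.pCore s ↥K).map K.subtype
  have hLn : ∀ s, (L s).Normal := fun s => by
    haveI := Cfsg.Agent.Lib.Helper23.pCore_characteristic s ↥K
    exact ConjAct.normal_of_characteristic_of_normal
  have hLp : ∀ s : ℕ, s.Prime → IsPGroup s (L s) := fun s hs => by
    haveI : Fact s.Prime := ⟨hs⟩
    exact (Cfsg.Agent.Lib.Helper55.pCore_isPGroup s ↥K).map _
  have hLK : ∀ s, L s ≤ K := fun s => Subgroup.map_subtype_le _
  have hLF : ∀ s : ℕ, s.Prime → L s ≤ Cfsg.fittingOf K := by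
    intro s hs
    haveI : Fact s.Prime := ⟨hs⟩
    unfold Cfsg.fittingOf
    apply Subgroup.map_mono
    exact Cfsg.Agent.Lib.Helper71.le_fittingSubgroup (Cfsg.pCore s ↥K)
      (Cfsg.Agent.Lib.Helper55.pCore_isPGroup s ↥K).isNilpotent
  -- decomposition of elements
  have hdec : ∀ g : G, ∃ k ∈ K, ∃ n : ℕ, g = k * x ^ n := by
    intro g
    have h1 : g ∈ K ⊔ Subgroup.zpowers x := by rw [hKx]; trivial
    rw [← SetLike.mem_coe, Subgroup.normal_mul] at h1
    obtain ⟨k, hk, z, hz, rfl⟩ := Set.mem_mul.mp h1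
    obtain ⟨n, hn⟩ := mem_powers_iff_mem_zpowers.mpr hz
    exact ⟨k, hk, n, by rw [← hn]⟩
  have hKF : ∀ c ∈ K, ∀ j : ℕ, c ^ r ^ j ∈ Cfsg.fittingOf K → c ∈ Cfsg.fittingOf K := by
    intro c hc j hcj
    have hcop : (orderOf c).Coprime (r ^ j) :=
      Nat.Coprime.coprime_dvd_left (hordK c hc) (Nat.Coprime.pow_right j hrKcop.symm)
    have h5 : Subgroup.zpowers (c ^ r ^ j) = Subgroup.zpowers c := by
      apply Subgroup.eq_of_le_of_card_ge
      · rw [Subgroup.zpowers_le]
        exact Subgroup.pow_mem _ (Subgroup.mem_zpowers _) _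
      · rw [Nat.card_zpowers, Nat.card_zpowers, Nat.Coprime.orderOf_pow hcop]
    have h6 : c ∈ Subgroup.zpowers (c ^ r ^ j) := by rw [h5]; exact Subgroup.mem_zpowers _
    exact (Subgroup.zpowers_le.mpr hcj) h6
  let π : G →* G ⧸ Cfsg.fittingOf K := QuotientGroup.mk' (Cfsg.fittingOf K)
  have hπker : ∀ g : G, π g = 1 ↔ g ∈ Cfsg.fittingOf K := fun g => QuotientGroup.eq_one_iff g
  have hcommK : ∀ k ∈ K, x * k * x⁻¹ * k⁻¹ ∈ K := fun k hk =>
    K.mul_mem (hKn.conj_mem k hk x) (K.inv_mem hk)
  -- the element `π x` commutes with the elements of prime order of the Fitting subgroup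
  have hcomm : ∀ ybar ∈ Cfsg.fittingSubgroup (G ⧸ Cfsg.fittingOf K), (orderOf ybar).Prime →
      π x * ybar = ybar * π x := by
    intro ybar hyF hyprime
    obtain ⟨t, ht⟩ : ∃ t, orderOf ybar = t := ⟨_, rfl⟩
    rw [ht] at hyprime
    have hft : Fact t.Prime := ⟨hyprime⟩
    have hyP : ybar ∈ Cfsg.pCore t (G ⧸ Cfsg.fittingOf K) :=
      Cfsg.Agent.Lib.Helper1.mem_pCore_of_mem_fitting ybar hyF 1
        (by rw [pow_one, ← ht]; exact pow_orderOf_eq_one _)
    have hPn : (Cfsg.pCore t (G ⧸ Cfsg.fittingOf K)).Normal := inferInstance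
    have hPp := Cfsg.Agent.Lib.Helper55.pCore_isPGroup t (G ⧸ Cfsg.fittingOf K)
    have htG : t ∣ Nat.card G := by
      rw [← ht]
      exact (orderOf_dvd_natCard ybar).trans (Subgroup.card_quotient_dvd_card _)
    obtain ⟨y, rfl⟩ := QuotientGroup.mk'_surjective (Cfsg.fittingOf K) ybar
    change π x * π y = π y * π x
    by_cases htr : t = r
    · obtain ⟨k, hk, n, hy⟩ := hdec y
      have hceq : π x * π y * (π x)⁻¹ * (π y)⁻¹ = π (x * k * x⁻¹ * k⁻¹) := by
        rw [hy]
        simp only [map_mul, map_inv, map_pow]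
        group
      have hcP : π x * π y * (π x)⁻¹ * (π y)⁻¹ ∈ Cfsg.pCore t (G ⧸ Cfsg.fittingOf K) :=
        Subgroup.mul_mem _ (hPn.conj_mem _ hyP _) (Subgroup.inv_mem _ hyP)
      obtain ⟨j, hj⟩ := hPp ⟨_, hcP⟩
      have hj' : (π (x * k * x⁻¹ * k⁻¹)) ^ t ^ j = 1 := by
        rw [← hceq]
        have := congrArg Subtype.val hj
        rwa [Subgroup.coe_pow] at this
      rw [htr, ← map_pow, hπker] at hj'
      have hcF := hKF _ (hcommK k hk) j hj'
      have h1 : π (x * k * x⁻¹ * k⁻¹) = 1 := (hπker _).mpr hcF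
      rw [← hceq] at h1
      calc π x * π y = (π x * π y * (π x)⁻¹ * (π y)⁻¹) * (π y * π x) := by group
        _ = π y * π x := by rw [h1, one_mul]
    · have ht2 : t ≠ 2 := fun h => hodd.not_two_dvd_nat (h ▸ htG)
      let P : Subgroup G := (Cfsg.pCore t (G ⧸ Cfsg.fittingOf K)).comap π
      haveI hPn' : P.Normal := hPn.comap π
      have hFP : Cfsg.fittingOf K ≤ P := by
        intro f hf
        change π f ∈ Cfsg.pCore t (G ⧸ Cfsg.fittingOf K)
        rw [(hπker f).mpr hf]
        exact Subgroup.one_mem _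
      have hPpow : ∀ g ∈ P, ∃ j : ℕ, g ^ t ^ j ∈ Cfsg.fittingOf K := by
        intro g hg
        obtain ⟨j, hj⟩ := hPp ⟨π g, hg⟩
        refine ⟨j, ?_⟩
        rw [← hπker, map_pow]
        have := congrArg Subtype.val hj
        rwa [Subgroup.coe_pow] at this
      have hPK : P ≤ K := by
        intro g hg
        obtain ⟨k, hk, n, hgk⟩ := hdec g
        obtain ⟨j, hj⟩ := hPpow g hg
        have h1 : (x ^ n) ^ t ^ j ∈ K := by
          have hk1 : (QuotientGroup.mk' K) k = 1 := (QuotientGroup.eq_one_iff k).mpr hk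
          have h2 : (QuotientGroup.mk' K) g = (QuotientGroup.mk' K) (x ^ n) := by
            rw [hgk, map_mul, hk1, one_mul]
          have h3 : (QuotientGroup.mk' K) (g ^ t ^ j) = 1 :=
            (QuotientGroup.eq_one_iff _).mpr (hFK hj)
          rw [map_pow, h2, ← map_pow] at h3
          exact (QuotientGroup.eq_one_iff _).mp h3
        have h5 : ((x ^ n) ^ t ^ j) ^ r = 1 := by
          rw [← pow_mul, ← pow_mul]
          have h9 : n * (t ^ j * r) = r * (n * t ^ j) := by ring
          rw [h9, pow_mul, hxr, one_pow]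
        have h6 : (x ^ n) ^ t ^ j = 1 :=
          orderOf_eq_one_iff.mp (Nat.eq_one_of_dvd_coprimes hrKcop
            (orderOf_dvd_of_pow_eq_one h5) (hordK _ h1))
        have h7 : (x ^ n) ^ r = 1 := by
          rw [← pow_mul, mul_comm, pow_mul, hxr, one_pow]
        have h8 : x ^ n = 1 :=
          orderOf_eq_one_iff.mp (Nat.eq_one_of_dvd_coprimes
            (Nat.Coprime.pow_left j ((Nat.coprime_primes hyprime hr).mpr htr))
            (orderOf_dvd_of_pow_eq_one h6) (orderOf_dvd_of_pow_eq_one h7))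
        rw [hgk, h8, mul_one]
        exact hk
      have hrP : ¬ r ∣ Nat.card P := fun h => hrK (h.trans (Subgroup.card_dvd_of_le hPK))
      have hZnorm : Subgroup.zpowers x ≤ Subgroup.normalizer (P : Set G) := by
        rw [Subgroup.normalizer_eq_top_iff.mpr hPn']
        exact le_top
      have hZp : IsPGroup r (Subgroup.zpowers x) := by
        rcases (Nat.dvd_prime hr).mp (orderOf_dvd_of_pow_eq_one hxr) with h | h
        · exact IsPGroup.of_card (n := 0) (by rw [Nat.card_zpowers, h, pow_zero])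
        · exact IsPGroup.of_card (n := 1) (by rw [Nat.card_zpowers, h, pow_one])
      obtain ⟨T, hTP, hTp, hTinv, hTidx⟩ :=
        exists_invariant_sylow P (Subgroup.zpowers x) hZnorm (r := r) (q := t) hZp hrP
      have hxT : ∀ g ∈ T, x * g * x⁻¹ ∈ T := fun g hg => hTinv x (Subgroup.mem_zpowers x) g hg
      -- `P = F T`
      have hPFT : P ≤ Cfsg.fittingOf K ⊔ T := by
        apply le_of_forall_prime_sylow
        intro q hq
        by_cases hqt : q = t
        · exact ⟨T, hTP, le_sup_right, hqt ▸ hTidx⟩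
        · refine ⟨Cfsg.fittingOf K, hFP, le_sup_left, ?_⟩
          have hquot : IsPGroup t (↥P ⧸ (Cfsg.fittingOf K).subgroupOf P) := by
            intro gbar
            induction gbar using QuotientGroup.induction_on with
            | _ g =>
              obtain ⟨j, hj⟩ := hPpow g g.2
              refine ⟨j, ?_⟩
              rw [← QuotientGroup.mk_pow, QuotientGroup.eq_one_iff, Subgroup.mem_subgroupOf,
                Subgroup.coe_pow]
              exact hj
          obtain ⟨n, hn⟩ := IsPGroup.iff_card.mp hquot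
          have h1 : (Cfsg.fittingOf K).relIndex P = t ^ n := by
            unfold Subgroup.relIndex
            rw [Subgroup.index_eq_card, hn]
          rw [h1]
          intro hdvd
          exact hqt ((Nat.prime_dvd_prime_iff_eq hq hyprime).mp (hq.dvd_of_dvd_pow hdvd))
      -- the Hall–Higman step
      have hcent : ∀ s : ℕ, s.Prime → s ≠ t → ∀ g ∈ T,
          g⁻¹ * (x * g * x⁻¹) ∈ Subgroup.centralizer (L s : Set G) := by
        intro s hs hst g hg
        by_cases hsr : s = r
        · have hbot : ∀ y ∈ L s, y = 1 := by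
            intro y hy
            obtain ⟨j, hj⟩ := hLp s hs ⟨y, hy⟩
            have hj' : y ^ s ^ j = 1 := by
              have := congrArg Subtype.val hj
              rwa [Subgroup.coe_pow] at this
            rw [hsr] at hj'
            exact orderOf_eq_one_iff.mp (Nat.eq_one_of_dvd_coprimes
              (Nat.Coprime.pow_left j hrKcop) (orderOf_dvd_of_pow_eq_one hj')
              (hordK y (hLK s hy)))
          rw [Subgroup.mem_centralizer_iff]
          intro y hy
          rw [hbot y hy, one_mul, mul_one]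
        · haveI := hLn s
          exact section_step (L s) hs hyprime hr hst hsr htr ht2 (hLp s hs) inferInstance T hTp
            x hxr hxT (fun y hy hxy => hfix y (hLF s hs hy) hxy) g hg
      let D : Subgroup G :=
        { carrier := {d | d ∈ T ∧ ∀ s : ℕ, s.Prime → s ≠ t →
            d ∈ Subgroup.centralizer (L s : Set G)}
          one_mem' := ⟨T.one_mem, fun s _ _ => Subgroup.one_mem _⟩
          mul_mem' := fun {a b} ha hb => ⟨T.mul_mem ha.1 hb.1, fun s hs hst =>
            Subgroup.mul_mem _ (ha.2 s hs hst) (hb.2 s hs hst)⟩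
          inv_mem' := fun {a} ha => ⟨T.inv_mem ha.1, fun s hs hst =>
            Subgroup.inv_mem _ (ha.2 s hs hst)⟩ }
      have hDT : D ≤ T := fun d hd => hd.1
      have hDp : IsPGroup t D := hTp.to_le hDT
      haveI hLtn : (L t).Normal := hLn t
      have hNp : IsPGroup t (L t ⊔ D : Subgroup G) :=
        IsPGroup.to_sup_of_normal_left (hLp t hyprime) hDp
      have hNP : L t ⊔ D ≤ P := sup_le ((hLF t hyprime).trans hFP) (hDT.trans hTP)
      have hcentN : ∀ s : ℕ, s.Prime → s ≠ t →
          L s ≤ Subgroup.centralizer ((L t ⊔ D : Subgroup G) : Set G) := by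
        intro s hs hst a ha
        haveI : Fact s.Prime := ⟨hs⟩
        have h1 : L t ⊔ D ≤ Subgroup.centralizer ({a} : Set G) := by
          apply sup_le
          · intro b hb
            rw [Subgroup.mem_centralizer_iff]
            intro a' ha'
            rw [Set.mem_singleton_iff.mp ha']
            exact (Subgroup.commute_of_normal_of_disjoint (L s) (L t) (hLn s) (hLn t)
              (IsPGroup.disjoint_of_ne s t hst _ _ (hLp s hs) (hLp t hyprime)) a b ha hb).eq
          · intro d hd
            rw [Subgroup.mem_centralizer_iff]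
            intro a' ha'
            rw [Set.mem_singleton_iff.mp ha']
            exact Subgroup.mem_centralizer_iff.mp (hd.2 s hs hst) a ha
        rw [Subgroup.mem_centralizer_iff]
        intro b hb
        exact (Subgroup.mem_centralizer_iff.mp (h1 hb) a rfl).symm
      have hTD : ∀ u ∈ T, ∀ d ∈ D, u * d * u⁻¹ ∈ D := by
        intro u hu d hd
        refine ⟨T.mul_mem (T.mul_mem hu hd.1) (T.inv_mem hu), ?_⟩
        intro s hs hst
        rw [Subgroup.mem_centralizer_iff]
        intro y hy
        have h1 : u⁻¹ * y * u ∈ L s := by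
          have := (hLn s).conj_mem y hy u⁻¹
          rwa [inv_inv] at this
        have h2 := Subgroup.mem_centralizer_iff.mp (hd.2 s hs hst) _ h1
        calc y * (u * d * u⁻¹) = u * ((u⁻¹ * y * u) * d) * u⁻¹ := by group
          _ = u * (d * (u⁻¹ * y * u)) * u⁻¹ := by rw [h2]
          _ = u * d * u⁻¹ * y := by group
      have hTnormN : T ≤ Subgroup.normalizer ((L t ⊔ D : Subgroup G) : Set G) := by
        intro u hu
        have hu1 : u ∈ Subgroup.normalizer ((L t : Subgroup G) : Set G) := by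
          rw [Subgroup.normalizer_eq_top_iff.mpr hLtn]
          trivial
        have hu2 : u ∈ Subgroup.normalizer ((D : Subgroup G) : Set G) := by
          rw [Subgroup.mem_normalizer_iff]
          intro d
          constructor
          · exact hTD u hu d
          · intro h
            have := hTD u⁻¹ (T.inv_mem hu) _ h
            have h2 : u⁻¹ * (u * d * u⁻¹) * u⁻¹⁻¹ = d := by group
            rwa [h2] at this
        exact Cfsg.Agent.Lib.Helper61.normalizer_inf_le_normalizer_sup _ _
          (Subgroup.mem_inf.mpr ⟨hu1, hu2⟩)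
      have hFnormN : Cfsg.fittingOf K ≤
          Subgroup.normalizer ((L t ⊔ D : Subgroup G) : Set G) := by
        have h1 : Cfsg.fittingSubgroup ↥K ≤
            (Subgroup.normalizer ((L t ⊔ D : Subgroup G) : Set G)).subgroupOf K := by
          apply Cfsg.Agent.Lib.Helper1.fitting_le_of_pCore_le
          intro q hq z hz
          rw [Subgroup.mem_subgroupOf]
          have hzL : (z : G) ∈ L q := ⟨z, hz, rfl⟩
          by_cases hqt : q = t
          · exact Subgroup.le_normalizer (Subgroup.mem_sup_left (hqt ▸ hzL))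
          · exact Subgroup.centralizer_le_normalizer _ (hcentN q hq hqt hzL)
        rintro _ ⟨f, hf, rfl⟩
        exact h1 hf
      have hPnormN : P ≤ Subgroup.normalizer ((L t ⊔ D : Subgroup G) : Set G) :=
        hPFT.trans (sup_le hFnormN hTnormN)
      have hNF : L t ⊔ D ≤ Cfsg.fittingOf K := by
        have hsub : ((L t ⊔ D).subgroupOf K).IsSubnormal := by
          apply Subgroup.IsSubnormal.step ((L t ⊔ D).subgroupOf K) (P.subgroupOf K)
          · intro z hz
            exact hNP hz
          · exact (inferInstance : (P.subgroupOf K).Normal).isSubnormal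
          · apply Subgroup.normal_subgroupOf_of_le_normalizer
            intro z hz
            rw [Subgroup.mem_normalizer_iff]
            intro w
            exact Subgroup.mem_normalizer_iff.mp (hPnormN hz) (w : G)
        have hnil : Group.IsNilpotent ↥((L t ⊔ D).subgroupOf K) :=
          (hNp.comap_subtype).isNilpotent
        have h3 := Cfsg.Agent.Lib.Helper21.subnormal_nilpotent_le_fittingSubgroup hsub hnil
        intro d hd
        exact ⟨⟨d, hPK (hNP hd)⟩, h3 hd, rfl⟩
      have hTF : ∀ u ∈ T, x * u * x⁻¹ * u⁻¹ ∈ Cfsg.fittingOf K := by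
        intro u hu
        have h1 : u⁻¹⁻¹ * (x * u⁻¹ * x⁻¹) ∈ D :=
          ⟨T.mul_mem (T.inv_mem (T.inv_mem hu)) (hxT _ (T.inv_mem hu)), fun s hs hst =>
            hcent s hs hst u⁻¹ (T.inv_mem hu)⟩
        have h2 := hNF (Subgroup.mem_sup_right h1)
        have h3 : x * u * x⁻¹ * u⁻¹ = (u⁻¹⁻¹ * (x * u⁻¹ * x⁻¹))⁻¹ := by group
        rw [h3]
        exact Subgroup.inv_mem _ h2
      have hyPm : y ∈ P := hyP
      have hy2 : y ∈ Cfsg.fittingOf K ⊔ T := hPFT hyPm
      rw [← SetLike.mem_coe, Subgroup.normal_mul] at hy2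
      obtain ⟨f, hf, u, hu, rfl⟩ := Set.mem_mul.mp hy2
      have h1 : π (f * u) = π u := by rw [map_mul, (hπker f).mpr hf, one_mul]
      rw [h1]
      have h2 : π (x * u * x⁻¹ * u⁻¹) = 1 := (hπker _).mpr (hTF u hu)
      rw [map_mul, map_mul, map_mul, map_inv, map_inv] at h2
      calc π x * π u = (π x * π u * (π x)⁻¹ * (π u)⁻¹) * (π u * π x) := by group
        _ = π u * π x := by rw [h2, one_mul]
  have hsolvQ : Group.IsSolvable (G ⧸ Cfsg.fittingOf K) := inferInstance
  have hoddF : Odd (Nat.card (Cfsg.fittingSubgroup (G ⧸ Cfsg.fittingOf K))) := by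
    apply Odd.of_dvd_nat hodd
    exact (Subgroup.card_subgroup_dvd_card _).trans (Subgroup.card_quotient_dvd_card _)
  have hxF := Cfsg.Agent.Lib.Helper1.mem_fitting_of_commute_prime hsolvQ hoddF (π x) hcomm
  have hxP : π x ∈ Cfsg.pCore r (G ⧸ Cfsg.fittingOf K) :=
    Cfsg.Agent.Lib.Helper1.mem_pCore_of_mem_fitting (π x) hxF 1
      (by rw [pow_one, ← map_pow, hxr, map_one])
  have hPrn : (Cfsg.pCore r (G ⧸ Cfsg.fittingOf K)).Normal := inferInstance
  intro k hk
  have hcP : π (x * k * x⁻¹ * k⁻¹) ∈ Cfsg.pCore r (G ⧸ Cfsg.fittingOf K) := by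
    rw [map_mul, map_mul, map_mul, map_inv, map_inv]
    have h1 : π x * π k * (π x)⁻¹ * (π k)⁻¹ = π x * (π k * (π x)⁻¹ * (π k)⁻¹) := by group
    rw [h1]
    exact Subgroup.mul_mem _ hxP (hPrn.conj_mem _ (Subgroup.inv_mem _ hxP) _)
  obtain ⟨j, hj⟩ := Cfsg.Agent.Lib.Helper55.pCore_isPGroup r (G ⧸ Cfsg.fittingOf K) ⟨_, hcP⟩
  have hj' : (x * k * x⁻¹ * k⁻¹) ^ r ^ j ∈ Cfsg.fittingOf K := by
    rw [← hπker, map_pow]
    have := congrArg Subtype.val hj
    rwa [Subgroup.coe_pow] at this
  exact hKF _ (hcommK k hk) j hj'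

end Cfsg.Agent.Lib.Helper97.HH
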