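-- S1402 (B-G Lemma 9.5) team effort: the generic lemma (N1)/(N2) of helper69's note.
-- A p-subgroup A of a solvable group X of odd order; Y a normal p'-subgroup of X; q an odd prime
-- different from p with X of q-rank at most 2.  Then the elements of A lying in [X, X]
-- centralize every A-invariant q-subgroup of Y.
import Mathlib
import Cfsg.Prelude.Def_OddOrderLocal
import Cfsg.Agent.Lib.Helper1.RankTwoLin
import Cfsg.Agent.Lib.Helper90.SylowCount
import Cfsg.Agent.Lib.Helper61.BG9a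
import Cfsg.Agent.Lib.Helper23.Transitivity3

set_option autoImplicit false

namespace Cfsg.Agent.Lib.Helper97.BG95

open Cfsg
open scoped commutatorElement

universe u

/-- A subgroup of `Y` of the full `q`-part order is an ambient Sylow `q`-subgroup of `Y`. -/
theorem isSylIn_of_card {G : Type u} [Group G] [Finite G] {q : ℕ} [Fact q.Prime] {Q Y : Subgroup G}
    (hQY : Q ≤ Y) (hc : Nat.card Q = q ^ (Nat.card Y).factorization q) :
    Cfsg.Agent.Lib.Helper61.IsSylIn q Q Y := by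
  have hq : q.Prime := Fact.out
  refine ⟨hQY, IsPGroup.of_card hc, ?_⟩
  intro Q' hQ' hQQ' hQ'Y
  obtain ⟨k, hk⟩ := IsPGroup.iff_card.mp hQ'
  have h1 : q ^ k ∣ Nat.card Y := hk ▸ Subgroup.card_dvd_of_le hQ'Y
  have h2 : k ≤ (Nat.card Y).factorization q :=
    (hq.pow_dvd_iff_le_factorization Nat.card_pos.ne').mp h1
  have h3 : Nat.card Q' ≤ Nat.card Q := by
    rw [hk, hc]
    exact Nat.pow_le_pow_right hq.pos h2
  exact (Subgroup.eq_of_le_of_card_ge hQQ' h3).symm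

/-- If `X = Y N` elementwise with `Y` normalized by `X`, then `[X, X] ≤ Y [N, N]`. -/
theorem commutator_le_sup_of_factor {G : Type u} [Group G] {X Y N : Subgroup G}
    (hXY : X ≤ Subgroup.normalizer (Y : Set G)) (hNX : N ≤ X)
    (hfr : ∀ x ∈ X, ∃ y ∈ Y, ∃ n ∈ N, x = y * n) : ⁅X, X⁆ ≤ Y ⊔ ⁅N, N⁆ := by
  rw [Subgroup.commutator_le]
  intro x₁ hx₁ x₂ hx₂
  obtain ⟨y₁, hy₁, n₁, hn₁, rfl⟩ := hfr x₁ hx₁
  obtain ⟨y₂, hy₂, n₂, hn₂, rfl⟩ := hfr x₂ hx₂
  have hconj : ∀ g ∈ X, ∀ y ∈ Y, g * y * g⁻¹ ∈ Y := fun g hg y hy =>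
    (Subgroup.mem_normalizer_iff.mp (hXY hg) y).mp hy
  have e : ⁅y₁ * n₁, y₂ * n₂⁆ = (y₁ * (n₁ * y₂ * n₁⁻¹) *
      ((n₁ * n₂ * n₁⁻¹) * y₁⁻¹ * (n₁ * n₂ * n₁⁻¹)⁻¹)) * ⁅n₁, n₂⁆ * y₂⁻¹ := by
    simp only [commutatorElement_def]
    group
  rw [e]
  refine Subgroup.mul_mem _ (Subgroup.mul_mem _ (Subgroup.mem_sup_left ?_)
    (Subgroup.mem_sup_right (Subgroup.commutator_mem_commutator hn₁ hn₂)))
    (Subgroup.mem_sup_left (Y.inv_mem hy₂))
  exact Y.mul_mem (Y.mul_mem hy₁ (hconj n₁ (hNX hn₁) y₂ hy₂))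
    (hconj _ (X.mul_mem (X.mul_mem (hNX hn₁) (hNX hn₂)) (X.inv_mem (hNX hn₁))) _ (Y.inv_mem hy₁))

/-- **(N1)/(N2)** (helper69).  `X` a solvable subgroup of odd order, `Y ≤ X` normalized by `X` of
order prime to `p`, `q ≠ p` an odd prime with `X` of `q`-rank at most `2`, `A ≤ X` a `p`-group,
`W ≤ Y` an `A`-invariant `q`-subgroup.  Then `A ∩ [X, X]` centralizes `W`. -/
theorem inf_commutator_le_centralizer {G : Type u} [Group G] [Finite G] {p q : ℕ} [Fact p.Prime]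
    [Fact q.Prime] (hq2 : q ≠ 2) (hpq : p ≠ q)
    (X Y W A : Subgroup G) (hXs : Group.IsSolvable X) (hXodd : Odd (Nat.card X))
    (hYX : Y ≤ X) (hXY : X ≤ Subgroup.normalizer (Y : Set G)) (hpY : ¬ p ∣ Nat.card Y)
    (hr : Cfsg.PRankLE q 2 X)
    (hWY : W ≤ Y) (hWq : IsPGroup q W)
    (hAX : A ≤ X) (hAp : IsPGroup p A) (hAW : A ≤ Subgroup.normalizer (W : Set G)) :
    A ⊓ ⁅X, X⁆ ≤ Subgroup.centralizer (W : Set G) := by
  have hp : p.Prime := Fact.out
  have hq : q.Prime := Fact.out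
  obtain ⟨Q, hWQ, hQY, hAQ, hQc⟩ := Cfsg.Agent.Lib.Helper90.exists_invariant_sylow_ge A Y W hAp
    (hAX.trans hXY) hpY hWY hWq hAW
  have hQsyl := isSylIn_of_card hQY hQc
  have hQq : IsPGroup q Q := hQsyl.2.1
  obtain ⟨N, hN⟩ : ∃ N : Subgroup G, N = X ⊓ Subgroup.normalizer (Q : Set G) := ⟨_, rfl⟩
  have hNX : N ≤ X := hN ▸ inf_le_left
  have hNQ : N ≤ Subgroup.normalizer (Q : Set G) := hN ▸ inf_le_right
  have hfr : ∀ x ∈ X, ∃ y ∈ Y, ∃ n ∈ N, x = y * n := by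
    intro x hx
    obtain ⟨y, hy, hn⟩ := Cfsg.Agent.Lib.Helper61.bg_frattini hQsyl (hXY hx)
    refine ⟨y, hy, y⁻¹ * x, ?_, by group⟩
    rw [hN]
    exact ⟨X.mul_mem (X.inv_mem (hYX hy)) hx, hn⟩
  have hcomm := commutator_le_sup_of_factor hXY hNX hfr
  have hrQ : Cfsg.PRankLE q 2 Q :=
    Cfsg.Agent.Lib.Helper61.bg_pRankLE_of_injective (Subgroup.inclusion (hQY.trans hYX))
      (Subgroup.inclusion_injective _) hr
  obtain ⟨φ, hφ⟩ := Cfsg.Agent.Lib.Helper1.exists_linearization hq2 Q N hQq hrQ hNQ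
  haveI : Group.IsSolvable X := hXs
  haveI : Group.IsSolvable N :=
    Group.isSolvable_of_isSolvable_injective (Subgroup.inclusion_injective hNX)
  have hNodd : Odd (Nat.card N) := hXodd.of_dvd_nat (Subgroup.card_dvd_of_le hNX)
  have hφc := Cfsg.Agent.Lib.Helper1.map_commutator_isPGroup hq2 hNodd φ
  have hN'N : ⁅N, N⁆ ≤ N := by
    rw [Subgroup.commutator_le]
    intro a ha b hb
    exact N.mul_mem (N.mul_mem (N.mul_mem ha hb) (N.inv_mem ha)) (N.inv_mem hb)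
  have hN'Y : ⁅N, N⁆ ≤ Subgroup.normalizer (Y : Set G) := hN'N.trans (hNX.trans hXY)
  have hmap : (commutator N).map N.subtype = ⁅N, N⁆ := by
    rw [commutator_def, Subgroup.map_commutator, ← MonoidHom.range_eq_map, Subgroup.range_subtype]
  intro a ha
  obtain ⟨haA, haX'⟩ := ha
  have haN : a ∈ N := by
    rw [hN]
    exact ⟨hAX haA, hAQ haA⟩
  obtain ⟨y, hy, c, hc, rfl⟩ := Cfsg.Agent.Lib.Helper23.exists_mul_of_mem_sup hN'Y (hcomm haX')
  have hcN : c ∈ N := hN'N hc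
  have hyN : y ∈ N := by
    have h := N.mul_mem haN (N.inv_mem hcN)
    simpa using h
  have hc' : (⟨c, hcN⟩ : N) ∈ commutator N := by
    rw [← hmap] at hc
    obtain ⟨c', hc', hcc⟩ := hc
    have : c' = ⟨c, hcN⟩ := Subtype.ext hcc
    rw [← this]
    exact hc'
  have hpow : (⟨y * c, haN⟩ : N) ^ Nat.card Y ∈ commutator N := by
    rw [← Abelianization.ker_of N, MonoidHom.mem_ker, map_pow]
    have h2 : Abelianization.of (⟨y * c, haN⟩ : N) = Abelianization.of (⟨y, hyN⟩ : N) := by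
      have h3 : (⟨y * c, haN⟩ : N) = ⟨y, hyN⟩ * ⟨c, hcN⟩ := rfl
      rw [h3, map_mul]
      have h4 : Abelianization.of (⟨c, hcN⟩ : N) = 1 := by
        rw [← MonoidHom.mem_ker, Abelianization.ker_of]
        exact hc'
      rw [h4, mul_one]
    rw [h2, ← map_pow]
    have h5 : (⟨y, hyN⟩ : N) ^ Nat.card Y = 1 := by
      apply Subtype.ext
      rw [Subgroup.coe_pow, Subgroup.coe_one]
      have h6 : (⟨y, hy⟩ : Y) ^ Nat.card Y = 1 := pow_card_eq_one'
      exact congrArg Subtype.val h6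
    rw [h5, map_one]
  obtain ⟨n, hn⟩ := hφc _ hpow
  have h3 : φ ⟨y * c, haN⟩ ^ (Nat.card Y * q ^ n) = 1 := by
    rw [pow_mul, ← map_pow, ← map_pow]
    exact hn
  obtain ⟨k, hk⟩ := hAp ⟨y * c, haA⟩
  have hk' : (y * c) ^ p ^ k = 1 := by
    have := congrArg Subtype.val hk
    simpa using this
  have h4 : φ ⟨y * c, haN⟩ ^ (p ^ k) = 1 := by
    rw [← map_pow]
    have h5 : (⟨y * c, haN⟩ : N) ^ p ^ k = 1 := by
      apply Subtype.ext
      rw [Subgroup.coe_pow, Subgroup.coe_one]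
      exact hk'
    rw [h5, map_one]
  have hpq' : Nat.Coprime p q := (Nat.coprime_primes hp hq).mpr hpq
  have hcop : Nat.Coprime (Nat.card Y * q ^ n) (p ^ k) := by
    apply Nat.Coprime.pow_right
    apply Nat.Coprime.mul_left
    · exact ((Nat.Prime.coprime_iff_not_dvd hp).mpr hpY).symm
    · exact (Nat.Coprime.pow_right n hpq').symm
  have h5 : φ ⟨y * c, haN⟩ = 1 := by
    have h6 := pow_gcd_eq_one.mpr ⟨h3, h4⟩
    rwa [Nat.Coprime.gcd_eq_one hcop, pow_one] at h6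
  have h6 := hφ ⟨y * c, haN⟩ h5 (by
    have h7 : orderOf (y * c) ∣ p ^ k := orderOf_dvd_of_pow_eq_one hk'
    exact Nat.Coprime.coprime_dvd_left h7 (Nat.Coprime.pow_left k hpq'))
  exact Subgroup.centralizer_le hWQ h6

/-- **(N2)**, for a subgroup `A` satisfying the transitivity hypothesis: if `A` is a `p`-group,
`M ≥ A` is a proper subgroup of `q`-rank at most `2` (`q ≠ p`), then `A ∩ [M, M]` centralizes every
`A`-invariant `q`-subgroup of `M`. -/
theorem th_inf_commutator_le_centralizer {G : Type u} [Group G] [Finite G]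
    (hG : Cfsg.IsMinSimpleOddOrder G) {p q : ℕ} [Fact p.Prime] [Fact q.Prime] (hpq : p ≠ q)
    (A : Subgroup G) (hA : Cfsg.TransitivityHypothesis A) (hAp : IsPGroup p A)
    (M : Subgroup G) (hM : M ≠ ⊤) (hAM : A ≤ M) (hr : Cfsg.PRankLE q 2 M)
    (W : Subgroup G) (hWM : W ≤ M) (hWq : IsPGroup q W)
    (hAW : A ≤ Subgroup.normalizer (W : Set G)) :
    A ⊓ ⁅M, M⁆ ≤ Subgroup.centralizer (W : Set G) := by
  have hp : p.Prime := Fact.out
  have hq : q.Prime := Fact.out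
  obtain ⟨hodd, hsimple, hnc, hsolv⟩ := hG
  by_cases hW1 : W = ⊥
  · rw [hW1]
    intro a _
    rw [Subgroup.mem_centralizer_iff]
    intro w hw
    have hw1 : w = 1 := Subgroup.mem_bot.mp hw
    rw [hw1, one_mul, mul_one]
  have hMs : Group.IsSolvable M := hsolv M hM
  have hModd : Odd (Nat.card M) := hodd.of_dvd_nat (Subgroup.card_subgroup_dvd_card M)
  have hdvd : ∀ {r : ℕ} [Fact r.Prime] {T : Subgroup G}, IsPGroup r T → T ≠ ⊥ → r ∣ Nat.card T := by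
    intro r _ T hT hT1
    obtain ⟨k, hk⟩ := IsPGroup.iff_card.mp hT
    have hk0 : k ≠ 0 := by
      rintro rfl
      rw [pow_zero] at hk
      exact hT1 (Subgroup.card_eq_one.mp hk)
    exact hk ▸ dvd_pow_self r hk0
  have hqW : q ∣ Nat.card W := hdvd hWq hW1
  have hq2 : q ≠ 2 := by
    intro h2
    exact (Nat.not_even_iff_odd.mpr hodd)
      (even_iff_two_dvd.mpr (h2 ▸ hqW.trans (Subgroup.card_subgroup_dvd_card W)))
  obtain ⟨hA1, hAtop, hTH⟩ := hA
  have hpA : p ∣ Nat.card A := hdvd hAp hA1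
  have hqA : ¬ q ∣ Nat.card A := by
    intro h
    obtain ⟨j, hj⟩ := IsPGroup.iff_card.mp hAp
    rw [hj] at h
    exact hpq ((Nat.prime_dvd_prime_iff_eq hq hp).mp (hq.dvd_of_dvd_pow h)).symm
  obtain ⟨Y, hY⟩ : ∃ Y : Subgroup G, Y = piCoreOf (primesNotDvd (Nat.card A)) M := ⟨_, rfl⟩
  have hYM : Y ≤ M := hY ▸ Cfsg.Agent.Lib.Helper23.piCoreOf_le _ _
  have hMY : M ≤ Subgroup.normalizer (Y : Set G) :=
    hY ▸ Cfsg.Agent.Lib.Helper23.piCoreOf_normalizer _ _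
  have hpY : ¬ p ∣ Nat.card Y := by
    intro h
    rw [hY] at h
    exact (Cfsg.Agent.Lib.Helper23.piCoreOf_isPi _ M p hp h).2 hpA
  have hWY : W ≤ Y := by
    rw [hY, ← hTH M hM hAM]
    apply le_sSup
    refine ⟨hWM, ?_, hAW⟩
    intro r hr hrW
    obtain ⟨k, hk⟩ := IsPGroup.iff_card.mp hWq
    rw [hk] at hrW
    have hrq : r = q := (Nat.prime_dvd_prime_iff_eq hr hq).mp (hr.dvd_of_dvd_pow hrW)
    rw [hrq]
    exact ⟨hq, hqA⟩
  exact inf_commutator_le_centralizer hq2 hpq M Y W A hMs hModd hYM hMY hpY hr hWY hWq hAM hAp hAW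

end Cfsg.Agent.Lib.Helper97.BG95
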