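-- A faithful irreducible module of an extraspecial group of order `p^(2w+1)` in coprime
-- characteristic `r` has order at least `r^(n p^w)`, `n` the order of `r` modulo `p`.
import Mathlib

set_option autoImplicit false

namespace Cfsg.Agent.Lib.Helper97.ExtraMod

open Module
open scoped commutatorElement

/-- If the endomorphisms `T q` commute with the scalars of a field `K` acting on a finite abelian
group `M` and are linearly independent over `K`, then `|Q| ≤ (dim M)^2`. -/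
theorem field_rep_bound {K M Q : Type*} [Field K] [Finite K] [AddCommGroup M] [Finite M]
    [Fintype Q] (φ : K →+* AddMonoid.End M) (T : Q → AddMonoid.End M)
    (hcomm : ∀ k q, φ k * T q = T q * φ k)
    (hind : ∀ c : Q → K, ∑ q, φ (c q) * T q = 0 → c = 0) :
    ∃ d : ℕ, Nat.card M = Nat.card K ^ d ∧ Fintype.card Q ≤ d * d := by
  classical
  letI mod : Module K M := Module.compHom M φ
  have hsmul : ∀ (k : K) (m : M), k • m = φ k m := fun _ _ => rfl
  have hfin : Module.Finite K M := Module.Finite.of_finite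
  refine ⟨finrank K M, Module.natCard_eq_pow_finrank (K := K) (V := M), ?_⟩
  let T' : Q → (M →ₗ[K] M) := fun q =>
    { toFun := T q
      map_add' := fun a b => map_add (T q) a b
      map_smul' := fun k m => by
        rw [RingHom.id_apply, hsmul, hsmul]
        change (T q * φ k) m = (φ k * T q) m
        rw [hcomm] }
  have hT' : ∀ q m, T' q m = T q m := fun _ _ => rfl
  let Λ : (Q → K) → (M →ₗ[K] M) := fun c => ∑ q, c q • T' q
  have hΛ : ∀ c m, Λ c m = ∑ q, φ (c q) (T q m) := by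
    intro c m
    simp only [Λ, LinearMap.sum_apply, LinearMap.smul_apply, hT', hsmul]
  have hsumapp : ∀ (f : Q → AddMonoid.End M) (m : M), (∑ q, f q) m = ∑ q, f q m :=
    fun f m => map_sum (AddMonoidHom.eval m) f Finset.univ
  have hinj : Function.Injective Λ := by
    intro c c' hcc
    have h1 : c - c' = 0 := by
      apply hind
      ext m
      rw [hsumapp]
      have h2 : ∀ q, (φ ((c - c') q) * T q) m = φ (c q) (T q m) - φ (c' q) (T q m) := by
        intro q
        change φ (c q - c' q) (T q m) = _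
        rw [map_sub]
        rfl
      rw [Finset.sum_congr rfl (fun q _ => h2 q), Finset.sum_sub_distrib, ← hΛ, ← hΛ, hcc,
        sub_self]
      rfl
    exact sub_eq_zero.mp h1
  have hfinL : Finite (M →ₗ[K] M) :=
    Finite.of_injective (fun f : M →ₗ[K] M => (f : M → M)) DFunLike.coe_injective
  have hc1 : Nat.card (Q → K) ≤ Nat.card (M →ₗ[K] M) := Nat.card_le_card_of_injective Λ hinj
  have hc2 : Nat.card (Q → K) = Nat.card K ^ Fintype.card Q := by
    rw [Nat.card_fun, Nat.card_eq_fintype_card (α := Q)]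
  have hc3 : Nat.card (M →ₗ[K] M) = Nat.card K ^ (finrank K M * finrank K M) := by
    rw [Module.natCard_eq_pow_finrank (K := K) (V := M →ₗ[K] M), Module.finrank_linearMap]
  have hK2 : 1 < Nat.card K := Finite.one_lt_card
  rw [hc2, hc3] at hc1
  exact (Nat.pow_le_pow_iff_right hK2).mp hc1

/-- The module bound for an extraspecial group, additive form. -/
theorem extraspecial_module_bound {M E : Type*} [AddCommGroup M] [Finite M] [Nontrivial M]
    [Group E] [Finite E]
    (ρ : E →* AddMonoid.End M) {p r : ℕ} (hp : p.Prime) (hr : r.Prime) (hpr : p ≠ r)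
    (w : ℕ) (hcard : Nat.card E = p ^ (2 * w + 1))
    (hZcard : Nat.card (Subgroup.center E) = p)
    (hcomm : ∀ g h : E, ⁅g, h⁆ ∈ Subgroup.center E)
    (hexp : ∀ m : M, r • m = 0)
    (hfix : ∀ z ∈ Subgroup.center E, z ≠ 1 → ∀ m : M, ρ z m = m → m = 0)
    (hirr : ∀ W : AddSubgroup M, (∀ g, ∀ x ∈ W, ρ g x ∈ W) → W = ⊥ ∨ W = ⊤)
    (n : ℕ) (hmin : ∀ k : ℕ, 1 ≤ k → p ∣ r ^ k - 1 → n ≤ k) :
    r ^ (n * p ^ w) ≤ Nat.card M := by
  classical
  have hfp : Fact p.Prime := ⟨hp⟩
  have hfr : Fact r.Prime := ⟨hr⟩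
  have hfE : Fintype E := Fintype.ofFinite E
  have hfR : Finite (AddMonoid.End M) :=
    Finite.of_injective (fun f : AddMonoid.End M => (f : M → M)) DFunLike.coe_injective
  have hρinv : ∀ g : E, ρ g * ρ g⁻¹ = 1 := fun g => by rw [← map_mul, mul_inv_cancel, map_one]
  -- a nontrivial central element
  obtain ⟨z₀, hz₀Z, hz₀1⟩ : ∃ z₀ ∈ Subgroup.center E, z₀ ≠ 1 := by
    have h1 : 1 < Nat.card (Subgroup.center E) := by rw [hZcard]; exact hp.one_lt
    have : Nontrivial (Subgroup.center E) := Finite.one_lt_card_iff_nontrivial.mp h1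
    obtain ⟨x, hx⟩ := exists_ne (1 : Subgroup.center E)
    exact ⟨x.1, x.2, fun h => hx (Subtype.ext h)⟩
  have hz₀p : z₀ ^ p = 1 := by
    have h1 : (⟨z₀, hz₀Z⟩ : Subgroup.center E) ^ Nat.card (Subgroup.center E) = 1 :=
      pow_card_eq_one'
    rw [hZcard] at h1
    exact congrArg Subtype.val h1
  have hζcomm : ∀ g, ρ g * ρ z₀ = ρ z₀ * ρ g := by
    intro g
    rw [← map_mul, ← map_mul]
    congr 1
    exact Subgroup.mem_center_iff.mp hz₀Z g
  have hζp : ρ z₀ ^ p = 1 := by rw [← map_pow, hz₀p, map_one]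
  have hζ1 : ρ z₀ ≠ 1 := by
    intro h
    obtain ⟨m, hm⟩ := exists_ne (0 : M)
    apply hm
    apply hfix z₀ hz₀Z hz₀1 m
    rw [h]
    rfl
  -- the field generated by the central element
  set 𝔽 : Subring (AddMonoid.End M) := Subring.closure {ρ z₀} with h𝔽
  letI cr : CommRing 𝔽 := Subring.closureCommRingOfComm (by
    rintro a ha b hb
    rw [Set.mem_singleton_iff.mp ha, Set.mem_singleton_iff.mp hb])
  have h𝔽comm : ∀ (a : AddMonoid.End M), a ∈ 𝔽 → ∀ g, ρ g * a = a * ρ g := by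
    intro a ha
    have hle : 𝔽 ≤ Subring.centralizer (Set.range ρ) := by
      rw [h𝔽, Subring.closure_le]
      rintro _ rfl
      rw [SetLike.mem_coe, Subring.mem_centralizer_iff]
      rintro _ ⟨g, rfl⟩
      exact hζcomm g
    intro g
    exact (Subring.mem_centralizer_iff.mp (hle ha)) (ρ g) ⟨g, rfl⟩
  have hnzd : NoZeroDivisors 𝔽 := by
    refine ⟨?_⟩
    intro a b hab
    have hab' : a.1 * b.1 = 0 := congrArg Subtype.val hab
    let K₀ : AddSubgroup M :=
      { carrier := {x | a.1 x = 0}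
        add_mem' := fun {u v} hu hv => by
          change a.1 (u + v) = 0
          rw [map_add, hu, hv, add_zero]
        zero_mem' := map_zero _
        neg_mem' := fun {u} hu => by
          change a.1 (-u) = 0
          rw [map_neg, hu, neg_zero] }
    rcases hirr K₀ (by
      intro g x hx
      have hx' : a.1 x = 0 := hx
      change a.1 (ρ g x) = 0
      have h6 : a.1 (ρ g x) = (a.1 * ρ g) x := rfl
      rw [h6, ← h𝔽comm a.1 a.2 g]
      change ρ g (a.1 x) = 0
      rw [hx', map_zero]) with hk | hk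
    · right
      apply Subtype.ext
      ext m
      have h6 : b.1 m ∈ K₀ := by
        change (a.1 * b.1) m = 0
        rw [hab']
        rfl
      rw [hk] at h6
      exact AddSubgroup.mem_bot.mp h6
    · left
      apply Subtype.ext
      ext m
      have h6 : m ∈ K₀ := by rw [hk]; trivial
      exact h6
  have hnA : Nontrivial 𝔽 := by
    refine ⟨⟨0, 1, ?_⟩⟩
    intro h01
    obtain ⟨m, hm⟩ := exists_ne (0 : M)
    apply hm
    have h6 : ((0 : 𝔽) : AddMonoid.End M) m = ((1 : 𝔽) : AddMonoid.End M) m := by rw [h01]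
    exact h6.symm
  have hdomF : IsDomain 𝔽 := NoZeroDivisors.to_isDomain 𝔽
  have hfin : Fintype 𝔽 := Fintype.ofFinite 𝔽
  letI fld : Field 𝔽 := Fintype.fieldOfDomain 𝔽
  -- the characteristic
  have hrR : (r : AddMonoid.End M) = 0 := by
    ext m
    change r • m = 0
    exact hexp m
  have hr𝔽 : (r : 𝔽) = 0 := by
    apply Subtype.ext
    change (r : AddMonoid.End M) = 0
    exact hrR
  have hchar : CharP 𝔽 r := (CharP.charP_iff_prime_eq_zero hr).mpr hr𝔽
  obtain ⟨m₁, -, hm₁⟩ := FiniteField.card 𝔽 r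
  -- the order of the central element divides `r ^ m₁ - 1`
  let ζ' : 𝔽 := ⟨ρ z₀, Subring.subset_closure rfl⟩
  have hζ'p : ζ' ^ p = 1 := Subtype.ext hζp
  have hζ'1 : ζ' ≠ 1 := fun h => hζ1 (congrArg Subtype.val h)
  have hζ'0 : ζ' ≠ 0 := by
    intro h
    rw [h, zero_pow hp.ne_zero] at hζ'p
    exact zero_ne_one hζ'p
  have hord : orderOf ζ' = p := orderOf_eq_prime hζ'p hζ'1
  have hpdvd : p ∣ r ^ (m₁ : ℕ) - 1 := by
    rw [← hord, ← hm₁]
    exact orderOf_dvd_of_pow_eq_one (FiniteField.pow_card_sub_one_eq_one ζ' hζ'0)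
  have hnm : n ≤ (m₁ : ℕ) := hmin m₁ m₁.pos hpdvd
  -- the averaging operator
  let Q := E ⧸ Subgroup.center E
  have hfQ : Fintype Q := Fintype.ofFinite Q
  let t : Q → E := fun q => Quotient.out q
  have ht : ∀ q : Q, (QuotientGroup.mk (t q) : Q) = q := fun q => QuotientGroup.out_eq' q
  let Φ : AddMonoid.End M → AddMonoid.End M := fun X => ∑ h : E, ρ h * X * ρ h⁻¹
  have hΦadd : ∀ (s : Finset Q) (f : Q → AddMonoid.End M),
      Φ (∑ q ∈ s, f q) = ∑ q ∈ s, Φ (f q) := by
    intro s f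
    change ∑ h : E, ρ h * (∑ q ∈ s, f q) * ρ h⁻¹ = ∑ q ∈ s, ∑ h : E, ρ h * f q * ρ h⁻¹
    rw [Finset.sum_comm]
    apply Finset.sum_congr rfl
    intro h _
    rw [Finset.mul_sum, Finset.sum_mul]
  have hΦsmul : ∀ (a X : AddMonoid.End M), a ∈ 𝔽 → Φ (a * X) = a * Φ X := by
    intro a X ha
    change ∑ h : E, ρ h * (a * X) * ρ h⁻¹ = a * ∑ h : E, ρ h * X * ρ h⁻¹
    rw [Finset.mul_sum]
    apply Finset.sum_congr rfl
    intro h _
    rw [← mul_assoc (ρ h), h𝔽comm a ha h]
    simp only [mul_assoc]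
  have hΦone : Φ 1 = (Nat.card E : AddMonoid.End M) := by
    change ∑ h : E, ρ h * 1 * ρ h⁻¹ = _
    simp only [mul_one, hρinv]
    simp [Nat.card_eq_fintype_card]
  have hΦzero : Φ 0 = 0 := by
    change ∑ h : E, ρ h * 0 * ρ h⁻¹ = 0
    simp
  have hΦnc : ∀ g : E, g ∉ Subgroup.center E → Φ (ρ g) = 0 := by
    intro g hg
    have hex : ∃ h₀ : E, h₀ * g ≠ g * h₀ := by
      by_contra hcon
      push Not at hcon
      exact hg (Subgroup.mem_center_iff.mpr (fun h => hcon h))
    obtain ⟨h₀, hh₀⟩ := hex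
    have hz'Z : ⁅h₀, g⁆ ∈ Subgroup.center E := hcomm h₀ g
    have hz'1 : ⁅h₀, g⁆ ≠ 1 := fun h => hh₀ (commutatorElement_eq_one_iff_mul_comm.mp h)
    have hS : ρ ⁅h₀, g⁆ * Φ (ρ g) = Φ (ρ g) := by
      change ρ ⁅h₀, g⁆ * ∑ h : E, ρ h * ρ g * ρ h⁻¹ = ∑ h : E, ρ h * ρ g * ρ h⁻¹
      rw [Finset.mul_sum, ← Equiv.sum_comp (Equiv.mulRight h₀) (fun h => ρ h * ρ g * ρ h⁻¹)]
      apply Finset.sum_congr rfl
      intro h _
      simp only [Equiv.coe_mulRight, ← map_mul]
      congr 1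
      have hc : h * ⁅h₀, g⁆ = ⁅h₀, g⁆ * h := Subgroup.mem_center_iff.mp hz'Z h
      calc ⁅h₀, g⁆ * (h * g * h⁻¹) = (⁅h₀, g⁆ * h) * g * h⁻¹ := by group
        _ = h * ⁅h₀, g⁆ * g * h⁻¹ := by rw [hc]
        _ = h * h₀ * g * (h * h₀)⁻¹ := by rw [commutatorElement_def]; group
    ext m
    change Φ (ρ g) m = 0
    apply hfix ⁅h₀, g⁆ hz'Z hz'1
    change (ρ ⁅h₀, g⁆ * Φ (ρ g)) m = Φ (ρ g) m
    rw [hS]
  -- invertibility of `|E|`
  have hcopn : Nat.Coprime (Nat.card E) r := by
    rw [hcard]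
    apply Nat.Coprime.pow_left
    exact (Nat.coprime_primes hp hr).mpr hpr
  obtain ⟨m₀, -, hm₀⟩ := Nat.exists_mul_mod_eq_one_of_coprime hcopn hr.one_lt
  have hm₀R : (Nat.card E : AddMonoid.End M) * (m₀ : AddMonoid.End M) = 1 := by
    have h6 : Nat.card E * m₀ = r * (Nat.card E * m₀ / r) + 1 := by
      have := Nat.div_add_mod (Nat.card E * m₀) r
      rw [hm₀] at this
      exact this.symm
    have h7 : ((Nat.card E * m₀ : ℕ) : AddMonoid.End M) = 1 := by
      rw [h6]
      push_cast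
      rw [hrR, zero_mul, zero_add]
    rw [← Nat.cast_mul, h7]
  -- linear independence
  have hind : ∀ c : Q → 𝔽, ∑ q, 𝔽.subtype (c q) * ρ (t q) = 0 → c = 0 := by
    intro c hc
    funext q₀
    have h1 : ∑ q, (c q).1 * ρ (t q * (t q₀)⁻¹) = 0 := by
      have h2 : ∑ q, (c q).1 * ρ (t q * (t q₀)⁻¹) =
          (∑ q, 𝔽.subtype (c q) * ρ (t q)) * ρ (t q₀)⁻¹ := by
        rw [Finset.sum_mul]
        apply Finset.sum_congr rfl
        intro q _
        rw [map_mul, mul_assoc]
        rfl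
      rw [h2, hc, zero_mul]
    have h3 := congrArg Φ h1
    rw [hΦadd, hΦzero] at h3
    have h4 : ∀ q ∈ Finset.univ, q ≠ q₀ → Φ ((c q).1 * ρ (t q * (t q₀)⁻¹)) = 0 := by
      intro q _ hq
      rw [hΦsmul _ _ (c q).2, hΦnc, mul_zero]
      intro hmem
      apply hq
      rw [← ht q, ← ht q₀]
      rw [QuotientGroup.eq_iff_div_mem, div_eq_mul_inv]
      exact hmem
    rw [Finset.sum_eq_single q₀ (fun q hq hne => h4 q hq hne)
      (fun h => absurd (Finset.mem_univ _) h)] at h3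
    rw [mul_inv_cancel, map_one, hΦsmul _ _ (c q₀).2, hΦone] at h3
    apply Subtype.ext
    change (c q₀).1 = 0
    calc (c q₀).1 = (c q₀).1 * ((Nat.card E : AddMonoid.End M) * (m₀ : AddMonoid.End M)) := by
          rw [hm₀R, mul_one]
      _ = 0 := by rw [← mul_assoc, h3, zero_mul]
  obtain ⟨d, hMd, hQd⟩ := field_rep_bound (K := 𝔽) (Q := Q) 𝔽.subtype (fun q => ρ (t q))
    (fun k q => (h𝔽comm k.1 k.2 (t q)).symm) hind
  -- cardinalities
  have hQcard : Fintype.card Q = p ^ (2 * w) := by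
    have h1 := Subgroup.card_eq_card_quotient_mul_card_subgroup (Subgroup.center E)
    rw [hcard, hZcard, pow_succ] at h1
    rw [← Nat.card_eq_fintype_card]
    exact (Nat.eq_of_mul_eq_mul_right hp.pos h1).symm
  have hd : p ^ w ≤ d := by
    rw [hQcard] at hQd
    by_contra hcon
    push Not at hcon
    have h1 : d * d < p ^ w * p ^ w := Nat.mul_lt_mul'' hcon hcon
    rw [← pow_add, ← two_mul] at h1
    omega
  rw [hMd, ← Nat.card_eq_fintype_card] at *
  calc r ^ (n * p ^ w) ≤ r ^ ((m₁ : ℕ) * d) :=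
        Nat.pow_le_pow_right hr.pos (Nat.mul_le_mul hnm hd)
    _ = Nat.card 𝔽 ^ d := by rw [pow_mul, ← hm₁, Nat.card_eq_fintype_card]

end Cfsg.Agent.Lib.Helper97.ExtraMod
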