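-- The module bound for extraspecial groups, in multiplicative form: a faithful action on a
-- finite abelian group of prime exponent `r ≠ p`.
import Mathlib
import Cfsg.Agent.Lib.Helper90.Maschke
import Cfsg.Agent.Lib.Helper97.ExtraMod

set_option autoImplicit false

namespace Cfsg.Agent.Lib.Helper97.ExtraMod

open scoped commutatorElement

section
variable {E V : Type*} [Group E] [CommGroup V] [MulDistribMulAction E V]

/-- The endomorphisms of `Additive W` induced by a group leaving `W` invariant. -/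
def actEndTop (W : Subgroup V) (h : ∀ g : E, ∀ x ∈ W, g • x ∈ W) :
    E →* AddMonoid.End (Additive ↥W) where
  toFun s :=
    { toFun := fun m => Additive.ofMul
        (⟨s • ((Additive.toMul m : ↥W) : V), h s _ (Additive.toMul m).2⟩ : ↥W)
      map_zero' := congrArg Additive.ofMul (Subtype.ext (smul_one _))
      map_add' := fun _ _ => congrArg Additive.ofMul (Subtype.ext (smul_mul' _ _ _)) }
  map_one' := AddMonoidHom.ext (fun _ => congrArg Additive.ofMul (Subtype.ext (one_smul E _)))
  map_mul' := fun s t =>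
    AddMonoidHom.ext (fun _ => congrArg Additive.ofMul (Subtype.ext (mul_smul s t _)))

theorem actEndTop_apply (W : Subgroup V) (h : ∀ g : E, ∀ x ∈ W, g • x ∈ W) (s : E)
    (m : Additive ↥W) :
    ((Additive.toMul (actEndTop W h s m) : ↥W) : V) = s • ((Additive.toMul m : ↥W) : V) :=
  rfl

theorem extraspecial_faithful_bound [Finite E] [Finite V] {p r : ℕ} (hp : p.Prime)
    (hr : r.Prime) (hpr : p ≠ r) (w : ℕ)
    (hcard : Nat.card E = p ^ (2 * w + 1))
    (hZcard : Nat.card (Subgroup.center E) = p)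
    (hcomm : ∀ g h : E, ⁅g, h⁆ ∈ Subgroup.center E)
    (hexp : ∀ v : V, v ^ r = 1)
    (hfaith : ∀ g : E, (∀ v : V, g • v = v) → g = 1)
    (n : ℕ) (hmin : ∀ k : ℕ, 1 ≤ k → p ∣ r ^ k - 1 → n ≤ k) :
    r ^ (n * p ^ w) ≤ Nat.card V := by
  classical
  have hfp : Fact p.Prime := ⟨hp⟩
  have hfr : Fact r.Prime := ⟨hr⟩
  -- a nontrivial central element
  obtain ⟨z₀, hz₀Z, hz₀1⟩ : ∃ z₀ ∈ Subgroup.center E, z₀ ≠ 1 := by
    have h1 : 1 < Nat.card (Subgroup.center E) := by rw [hZcard]; exact hp.one_lt
    have : Nontrivial (Subgroup.center E) := Finite.one_lt_card_iff_nontrivial.mp h1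
    obtain ⟨x, hx⟩ := exists_ne (1 : Subgroup.center E)
    exact ⟨x.1, x.2, fun h => hx (Subtype.ext h)⟩
  -- its fixed points
  let U : Subgroup V :=
    { carrier := {v | z₀ • v = v}
      mul_mem' := fun {a b} ha hb => by
        have ha' : z₀ • a = a := ha
        have hb' : z₀ • b = b := hb
        change z₀ • (a * b) = a * b
        rw [smul_mul', ha', hb']
      one_mem' := smul_one z₀
      inv_mem' := fun {a} ha => by
        have ha' : z₀ • a = a := ha
        change z₀ • a⁻¹ = a⁻¹
        rw [smul_inv', ha'] }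
  have hUinv : ∀ g : E, ∀ x ∈ U, g • x ∈ U := by
    intro g x hx
    have hx' : z₀ • x = x := hx
    change z₀ • g • x = g • x
    rw [← mul_smul, ← Subgroup.mem_center_iff.mp hz₀Z g, mul_smul, hx']
  have hcop : (Nat.card E).Coprime (Nat.card V) := by
    have hV : IsPGroup r V := fun v => ⟨1, by rw [pow_one]; exact hexp v⟩
    obtain ⟨k, hk⟩ := IsPGroup.iff_card.mp hV
    rw [hk, hcard]
    exact Nat.Coprime.pow _ _ ((Nat.coprime_primes hp hr).mpr hpr)
  obtain ⟨W₂, hW₂inv, hdisj, hsup⟩ :=
    Cfsg.Agent.Lib.Helper90.maschke_elementary (A := E) hr hexp hcop U hUinv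
  have hW₂ne : W₂ ≠ ⊥ := by
    intro h
    rw [h, sup_bot_eq] at hsup
    apply hz₀1
    apply hfaith
    intro v
    have h1 : v ∈ U := by rw [hsup]; trivial
    exact h1
  -- a minimal invariant subgroup
  let P : Subgroup V → Prop := fun W => W ≤ W₂ ∧ (∀ g : E, ∀ x ∈ W, g • x ∈ W) ∧ W ≠ ⊥
  have hex : ∃ k, ∃ W : Subgroup V, Nat.card W = k ∧ P W :=
    ⟨_, W₂, rfl, le_rfl, hW₂inv, hW₂ne⟩
  obtain ⟨W, hWk, hWle, hWinv, hWne⟩ := Nat.find_spec hex
  have hWmin : ∀ W' : Subgroup V, W' ≤ W → (∀ g : E, ∀ x ∈ W', g • x ∈ W') →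
      W' = ⊥ ∨ W' = W := by
    intro W' hle hinv
    by_cases hb : W' = ⊥
    · exact Or.inl hb
    · right
      have h1 : Nat.find hex ≤ Nat.card W' :=
        Nat.find_min' hex ⟨W', rfl, hle.trans hWle, hinv, hb⟩
      rw [← hWk] at h1
      exact Subgroup.eq_of_le_of_card_ge hle h1
  -- fixed points of central elements on `W`
  have hWfix : ∀ z ∈ Subgroup.center E, z ≠ 1 → ∀ x ∈ W, z • x = x → x = 1 := by
    intro z hzZ hz1 x hx hzx
    have hpow : ∃ k : ℕ, z ^ k = z₀ := by
      have h1 : (⟨z₀, hz₀Z⟩ : Subgroup.center E) ∈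
          Subgroup.zpowers (⟨z, hzZ⟩ : Subgroup.center E) := by
        rw [zpowers_eq_top_of_prime_card hZcard (fun h => hz1 (congrArg Subtype.val h))]
        trivial
      obtain ⟨k, hk⟩ := mem_powers_iff_mem_zpowers.mpr h1
      exact ⟨k, congrArg Subtype.val hk⟩
    obtain ⟨k, hk⟩ := hpow
    have h2 : ∀ k : ℕ, z ^ k • x = x := by
      intro k
      induction k with
      | zero => rw [pow_zero, one_smul]
      | succ k ih => rw [pow_succ, mul_smul, hzx, ih]
    have h3 : x ∈ U ⊓ W₂ := ⟨by
      change z₀ • x = x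
      rw [← hk]
      exact h2 k, hWle hx⟩
    rw [hdisj] at h3
    exact Subgroup.mem_bot.mp h3
  have hfinW : Finite (Additive ↥W) := inferInstanceAs (Finite ↥W)
  have hntW' : Nontrivial ↥W := (Subgroup.nontrivial_iff_ne_bot W).mpr hWne
  have hntW : Nontrivial (Additive ↥W) := inferInstanceAs (Nontrivial ↥W)
  have key := extraspecial_module_bound (M := Additive ↥W) (actEndTop W hWinv) hp hr hpr w hcard
    hZcard hcomm
    (by
      intro m
      have h1 : ((Additive.toMul m : ↥W) ^ r : ↥W) = 1 := Subtype.ext (by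
        rw [Subgroup.coe_pow]
        exact hexp _)
      exact congrArg Additive.ofMul h1)
    (by
      intro z hzZ hz1 m hm
      have h1 : ((Additive.toMul m : ↥W) : V) = 1 := by
        apply hWfix z hzZ hz1 _ (Additive.toMul m).2
        exact congrArg (fun t : Additive ↥W => ((Additive.toMul t : ↥W) : V)) hm
      exact congrArg Additive.ofMul (Subtype.ext h1 : (Additive.toMul m : ↥W) = 1))
    (by
      intro W' hρ
      let W'' : Subgroup V := (AddSubgroup.toSubgroup' W').map W.subtype
      have hmem : ∀ x : ↥W, (x : V) ∈ W'' ↔ Additive.ofMul x ∈ W' := by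
        intro x
        constructor
        · rintro ⟨x', hx', hx'eq⟩
          have h1 : x' = x := Subtype.ext hx'eq
          rw [← h1]
          exact hx'
        · intro hx
          exact ⟨x, hx, rfl⟩
      have hle : W'' ≤ W := by
        rintro _ ⟨x', -, rfl⟩
        exact x'.2
      have hinv'' : ∀ g : E, ∀ x ∈ W'', g • x ∈ W'' := by
        rintro g _ ⟨x', hx', rfl⟩
        exact (hmem ⟨g • (x' : V), hWinv g _ x'.2⟩).mpr (hρ g _ hx')
      rcases hWmin W'' hle hinv'' with h | h
      · left
        rw [AddSubgroup.eq_bot_iff_forall]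
        intro m hm
        have h1 : ((Additive.toMul m : ↥W) : V) ∈ W'' := (hmem _).mpr hm
        rw [h] at h1
        have h2 : ((Additive.toMul m : ↥W) : V) = 1 := Subgroup.mem_bot.mp h1
        exact congrArg Additive.ofMul (Subtype.ext h2 : (Additive.toMul m : ↥W) = 1)
      · right
        rw [AddSubgroup.eq_top_iff']
        intro m
        have h1 : ((Additive.toMul m : ↥W) : V) ∈ W'' := by
          rw [h]
          exact (Additive.toMul m).2
        exact (hmem _).mp h1)
    n hmin
  calc r ^ (n * p ^ w) ≤ Nat.card (Additive ↥W) := key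
    _ = Nat.card ↥W := rfl
    _ ≤ Nat.card V := Nat.card_le_card_of_injective W.subtype W.subtype_injective

end

end Cfsg.Agent.Lib.Helper97.ExtraMod
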