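-- A Frobenius-like group `K⟨r⟩` acting on an elementary abelian group with cyclic `C_V(r)`:
-- the derived group of `K` acts trivially.
import Mathlib
import Cfsg.Agent.Lib.Helper90.Maschke
import Cfsg.Agent.Lib.Helper97.FrobAct

set_option autoImplicit false

namespace Cfsg.Agent.Lib.Helper97.FrobAct

open Subgroup
open scoped commutatorElement

section
variable {G V : Type*} [Group G] [CommGroup V] [MulDistribMulAction G V]

/-- The elements of `K` that commute with all of `K` in the action on `U`. -/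
def zSub (K : Subgroup G) (U : Subgroup V) (hU : ∀ g : G, ∀ u ∈ U, g • u ∈ U) : Subgroup G where
  carrier := {x | x ∈ K ∧ ∀ k ∈ K, ∀ u ∈ U, x • k • u = k • x • u}
  mul_mem' := by
    rintro x y ⟨hxK, hx⟩ ⟨hyK, hy⟩
    refine ⟨K.mul_mem hxK hyK, ?_⟩
    intro k hk u hu
    rw [mul_smul, mul_smul, hy k hk u hu, hx k hk _ (hU y u hu)]
  one_mem' := ⟨K.one_mem, fun k _ u _ => by rw [one_smul, one_smul]⟩
  inv_mem' := by
    rintro x ⟨hxK, hx⟩
    refine ⟨K.inv_mem hxK, ?_⟩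
    intro k hk u hu
    have h1 : x • x⁻¹ • k • u = x • k • x⁻¹ • u := by
      rw [smul_inv_smul, hx k hk _ (hU x⁻¹ u hu), smul_inv_smul]
    exact MulAction.injective x h1

theorem mem_zSub (K : Subgroup G) (U : Subgroup V) (hU : ∀ g : G, ∀ u ∈ U, g • u ∈ U) (x : G) :
    x ∈ zSub K U hU ↔ x ∈ K ∧ ∀ k ∈ K, ∀ u ∈ U, x • k • u = k • x • u := Iff.rfl

theorem zSub_conj (K : Subgroup G) [K.Normal] (U : Subgroup V)
    (hU : ∀ g : G, ∀ u ∈ U, g • u ∈ U) (g x : G) (hx : x ∈ zSub K U hU) :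
    g * x * g⁻¹ ∈ zSub K U hU := by
  obtain ⟨hxK, hx⟩ := hx
  refine ⟨‹K.Normal›.conj_mem x hxK g, ?_⟩
  intro k hk u hu
  have hk' : g⁻¹ * k * g ∈ K := by
    have := ‹K.Normal›.conj_mem k hk g⁻¹
    rwa [inv_inv] at this
  have h1 := hx (g⁻¹ * k * g) hk' (g⁻¹ • u) (hU g⁻¹ u hu)
  have h2 : (g * x * g⁻¹) • k • u = g • x • (g⁻¹ * k * g) • g⁻¹ • u := by
    simp [mul_smul]
  have h3 : k • (g * x * g⁻¹) • u = g • (g⁻¹ * k * g) • x • g⁻¹ • u := by
    simp [mul_smul]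
  rw [h2, h3, h1]

/-- A nilpotent `K` either acts trivially on `U` or `zSub` contains an element acting
nontrivially. -/
theorem exists_zSub_nontrivial (K : Subgroup G) (hnil : Group.IsNilpotent K) (U : Subgroup V)
    (hU : ∀ g : G, ∀ u ∈ U, g • u ∈ U) :
    (∀ k ∈ K, ∀ u ∈ U, k • u = u) ∨ ∃ x ∈ zSub K U hU, ∃ u ∈ U, x • u ≠ u := by
  obtain ⟨n, hn⟩ := (Subgroup.isNilpotent_iff_lowerCentralSeries K).mp hnil
  have key : ∀ n : ℕ, (∀ x ∈ K.lowerCentralSeries n, ∀ u ∈ U, x • u = u) →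
      (∀ k ∈ K, ∀ u ∈ U, k • u = u) ∨ ∃ x ∈ zSub K U hU, ∃ u ∈ U, x • u ≠ u := by
    intro n
    induction n with
    | zero => intro h; exact Or.inl h
    | succ n ih =>
      intro h
      by_cases h' : ∀ x ∈ K.lowerCentralSeries n, ∀ u ∈ U, x • u = u
      · exact ih h'
      · right
        push Not at h'
        obtain ⟨x, hx, u, hu, hxu⟩ := h'
        refine ⟨x, ⟨K.lowerCentralSeries_le_self n hx, ?_⟩, u, hu, hxu⟩
        intro k hk u' hu'
        have h1 : ⁅x, k⁆ ∈ K.lowerCentralSeries (n + 1) := by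
          rw [Subgroup.lowerCentralSeries_succ]
          exact Subgroup.commutator_mem_commutator hx hk
        have h2 := h _ h1 (k • x • u') (hU k _ (hU x u' hu'))
        rw [commutatorElement_def] at h2
        have h3 : (x * k * x⁻¹ * k⁻¹) • k • x • u' = x • k • u' := by
          simp [mul_smul]
        rw [← h3, h2]
  exact key n (fun x hx u _ => by
    rw [hn, Subgroup.mem_bot] at hx
    rw [hx, one_smul])

/-- In a module generated by one element over a commutative group of operators, any two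
endomorphisms commuting with the operators commute. -/
theorem comm_of_cyclic_module (Z : Subgroup G) (U : Subgroup V) (v₀ : V)
    (hZU : ∀ z ∈ Z, ∀ u ∈ U, z • u ∈ U)
    (hZcomm : ∀ z ∈ Z, ∀ z' ∈ Z, ∀ u ∈ U, z • z' • u = z' • z • u)
    (hgen : U ≤ closure ((fun z : G => z • v₀) '' (Z : Set G))) (hv₀ : v₀ ∈ U)
    (φ ψ : V →* V) (hφU : ∀ u ∈ U, φ u ∈ U) (hψU : ∀ u ∈ U, ψ u ∈ U)
    (hφ : ∀ z ∈ Z, ∀ u ∈ U, φ (z • u) = z • φ u) (hψ : ∀ z ∈ Z, ∀ u ∈ U, ψ (z • u) = z • ψ u) :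
    ∀ u ∈ U, φ (ψ u) = ψ (φ u) := by
  have hM : ∀ u ∈ closure ((fun z : G => z • v₀) '' (Z : Set G)),
      ∃ b : V →* V, b v₀ = u ∧ (∀ u' ∈ U, b u' ∈ U) ∧
        (∀ z ∈ Z, ∀ u' ∈ U, b (z • u') = z • b u') ∧
        (∀ θ : V →* V, (∀ u' ∈ U, θ u' ∈ U) → (∀ z ∈ Z, ∀ u' ∈ U, θ (z • u') = z • θ u') →
          ∀ u' ∈ U, θ (b u') = b (θ u')) := by
    intro u hu
    induction hu using Subgroup.closure_induction with
    | mem x hx =>
      obtain ⟨z, hz, rfl⟩ := hx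
      refine ⟨MulDistribMulAction.toMonoidHom V z, rfl, fun u' hu' => hZU z hz u' hu', ?_, ?_⟩
      · intro z' hz' u' hu'
        exact hZcomm z hz z' hz' u' hu'
      · intro θ _ hθ u' hu'
        exact hθ z hz u' hu'
    | one =>
      refine ⟨1, rfl, fun u' _ => U.one_mem, ?_, ?_⟩
      · intro z _ u' _
        simp
      · intro θ _ _ u' _
        simp
    | mul x y _ _ hx hy =>
      obtain ⟨b₁, hb₁, hb₁U, hb₁Z, hb₁C⟩ := hx
      obtain ⟨b₂, hb₂, hb₂U, hb₂Z, hb₂C⟩ := hy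
      refine ⟨b₁ * b₂, by rw [MonoidHom.mul_apply, hb₁, hb₂],
        fun u' hu' => U.mul_mem (hb₁U u' hu') (hb₂U u' hu'), ?_, ?_⟩
      · intro z hz u' hu'
        rw [MonoidHom.mul_apply, MonoidHom.mul_apply, hb₁Z z hz u' hu', hb₂Z z hz u' hu',
          smul_mul']
      · intro θ hθU hθ u' hu'
        rw [MonoidHom.mul_apply, MonoidHom.mul_apply, map_mul, hb₁C θ hθU hθ u' hu',
          hb₂C θ hθU hθ u' hu']
    | inv x _ hx =>
      obtain ⟨b, hb, hbU, hbZ, hbC⟩ := hx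
      refine ⟨b⁻¹, by rw [MonoidHom.inv_apply, hb], fun u' hu' => U.inv_mem (hbU u' hu'), ?_, ?_⟩
      · intro z hz u' hu'
        rw [MonoidHom.inv_apply, MonoidHom.inv_apply, hbZ z hz u' hu', smul_inv']
      · intro θ hθU hθ u' hu'
        rw [MonoidHom.inv_apply, MonoidHom.inv_apply, map_inv, hbC θ hθU hθ u' hu']
  obtain ⟨bψ, hbψ, hbψU, hbψZ, hbψC⟩ := hM (ψ v₀) (hgen (hψU v₀ hv₀))
  obtain ⟨bφ, hbφ, hbφU, hbφZ, hbφC⟩ := hM (φ v₀) (hgen (hφU v₀ hv₀))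
  have key : φ (ψ v₀) = ψ (φ v₀) := by
    calc φ (ψ v₀) = φ (bψ v₀) := by rw [hbψ]
      _ = bψ (φ v₀) := hbψC φ hφU hφ v₀ hv₀
      _ = bψ (bφ v₀) := by rw [hbφ]
      _ = bφ (bψ v₀) := (hbψC bφ hbφU hbφZ v₀ hv₀).symm
      _ = bφ (ψ v₀) := by rw [hbψ]
      _ = ψ (bφ v₀) := (hbφC ψ hψU hψ v₀ hv₀).symm
      _ = ψ (φ v₀) := by rw [hbφ]
  intro u hu
  obtain ⟨b, hb, hbU, hbZ, hbC⟩ := hM u (hgen hu)
  calc φ (ψ u) = φ (ψ (b v₀)) := by rw [hb]
    _ = φ (b (ψ v₀)) := by rw [hbC ψ hψU hψ v₀ hv₀]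
    _ = b (φ (ψ v₀)) := hbC φ hφU hφ _ (hψU v₀ hv₀)
    _ = b (ψ (φ v₀)) := by rw [key]
    _ = ψ (b (φ v₀)) := (hbC ψ hψU hψ _ (hφU v₀ hv₀)).symm
    _ = ψ (φ (b v₀)) := by rw [hbC φ hφU hφ v₀ hv₀]
    _ = ψ (φ u) := by rw [hb]

/-- The subgroup of `G` stabilizing the subgroup `W` of `V`. -/
def invStab (W : Subgroup V) : Subgroup G where
  carrier := {g | ∀ w, g • w ∈ W ↔ w ∈ W}
  mul_mem' := by
    intro a b ha hb w
    rw [mul_smul, ha (b • w), hb w]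
  one_mem' := by
    intro w
    rw [one_smul]
  inv_mem' := by
    intro a ha w
    have := ha (a⁻¹ • w)
    rw [smul_inv_smul] at this
    exact this.symm

theorem mem_invStab_of (W : Subgroup V) (g : G) (h1 : ∀ w ∈ W, g • w ∈ W)
    (h2 : ∀ w ∈ W, g⁻¹ • w ∈ W) : g ∈ invStab (G := G) W := by
  intro w
  refine ⟨fun h => ?_, h1 w⟩
  have := h2 _ h
  rwa [inv_smul_smul] at this

/-- An element permuting the generators `z • v₀` maps their closure into itself. -/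
theorem smul_mem_closure_orbit (Z : Subgroup G) (v₀ : V) (g : G)
    (hg : ∀ z ∈ Z, ∃ z' ∈ Z, g • z • v₀ = z' • v₀) :
    ∀ w ∈ closure ((fun z : G => z • v₀) '' (Z : Set G)),
      g • w ∈ closure ((fun z : G => z • v₀) '' (Z : Set G)) := by
  intro w hw
  induction hw using Subgroup.closure_induction with
  | mem x hx =>
    obtain ⟨z, hz, rfl⟩ := hx
    obtain ⟨z', hz', h⟩ := hg z hz
    exact Subgroup.subset_closure ⟨z', hz', h.symm⟩
  | one => rw [smul_one]; exact Subgroup.one_mem _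
  | mul x y _ _ hx hy => rw [smul_mul']; exact Subgroup.mul_mem _ hx hy
  | inv x _ hx => rw [smul_inv']; exact Subgroup.inv_mem _ hx

end

section
variable {G V : Type*} [Group G] [CommGroup V] [MulDistribMulAction G V] [Finite G] [Finite V]

omit [MulDistribMulAction G V] [Finite G] in
theorem coprime_card_of_exp {ℓ : ℕ} (hℓ : ℓ.Prime) (hexp : ∀ v : V, v ^ ℓ = 1)
    (hcop : ¬ ℓ ∣ Nat.card G) (S : Subgroup G) : (Nat.card S).Coprime (Nat.card V) := by
  have : Fact ℓ.Prime := ⟨hℓ⟩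
  have hV : IsPGroup ℓ V := fun v => ⟨1, by rw [pow_one]; exact hexp v⟩
  obtain ⟨n, hn⟩ := IsPGroup.iff_card.mp hV
  rw [hn]
  apply Nat.Coprime.pow_right
  have h1 : ¬ ℓ ∣ Nat.card S := fun h => hcop (h.trans (Subgroup.card_subgroup_dvd_card S))
  exact ((Nat.Prime.coprime_iff_not_dvd hℓ).mpr h1).symm

/-- The irreducible case. -/
theorem comm_of_irred (K : Subgroup G) [K.Normal] (hnil : Group.IsNilpotent K) (r : G) {p : ℕ}
    (hp : p.Prime) (hr : r ^ p = 1) (hfix : ∀ k ∈ K, r * k = k * r → k = 1)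
    {ℓ : ℕ} (hℓ : ℓ.Prime) (hexp : ∀ v : V, v ^ ℓ = 1) (hcop : ¬ ℓ ∣ Nat.card G)
    (U : Subgroup V) (hU : ∀ g : G, ∀ u ∈ U, g • u ∈ U)
    (hcyc : ∀ u ∈ U, ∀ u' ∈ U, r • u = u → r • u' = u' → u ≠ 1 → u' ∈ zpowers u)
    (hirr : ∀ W : Subgroup V, W ≤ U → (∀ g : G, ∀ w ∈ W, g • w ∈ W) → W = ⊥ ∨ W = U) :
    ∀ k ∈ K, ∀ k' ∈ K, ∀ u ∈ U, k • k' • u = k' • k • u := by
  classical
  rcases exists_zSub_nontrivial K hnil U hU with htriv | ⟨x, hxZ, u₁, hu₁, hxu₁⟩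
  · intro k hk k' hk' u hu
    rw [htriv k' hk' u hu, htriv k hk u hu, htriv k' hk' u hu]
  set Z := zSub K U hU with hZdef
  have hZK : ∀ z ∈ Z, z ∈ K := fun z hz => hz.1
  have hZnorm : ∀ g : G, ∀ z ∈ Z, g * z * g⁻¹ ∈ Z := fun g z hz => zSub_conj K U hU g z hz
  -- C_U(Z) = 1
  let C : Subgroup V :=
    { carrier := {u | u ∈ U ∧ ∀ z ∈ Z, z • u = u}
      mul_mem' := by
        rintro a b ⟨ha, ha'⟩ ⟨hb, hb'⟩
        exact ⟨U.mul_mem ha hb, fun z hz => by rw [smul_mul', ha' z hz, hb' z hz]⟩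
      one_mem' := ⟨U.one_mem, fun z _ => smul_one z⟩
      inv_mem' := by
        rintro a ⟨ha, ha'⟩
        exact ⟨U.inv_mem ha, fun z hz => by rw [smul_inv', ha' z hz]⟩ }
  have hCU : C ≤ U := fun u hu => hu.1
  have hCinv : ∀ g : G, ∀ w ∈ C, g • w ∈ C := by
    rintro g w ⟨hw, hw'⟩
    refine ⟨hU g w hw, fun z hz => ?_⟩
    have h1 : g⁻¹ * z * g ∈ Z := by
      have := hZnorm g⁻¹ z hz
      rwa [inv_inv] at this
    have h2 := hw' _ h1
    have h3 : z • g • w = g • (g⁻¹ * z * g) • w := by simp [mul_smul]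
    rw [h3, h2]
  have hC : ∀ u ∈ U, (∀ z ∈ Z, z • u = u) → u = 1 := by
    intro u hu hz
    rcases hirr C hCU hCinv with h | h
    · have h4 : u ∈ C := ⟨hu, hz⟩
      rw [h] at h4
      exact Subgroup.mem_bot.mp h4
    · exfalso
      have h4 : u₁ ∈ C := by rw [h]; exact hu₁
      exact hxu₁ (h4.2 x hxZ)
  -- coprimality
  have hcopZ : ∀ w : V, w ^ Nat.card Z = 1 → w = 1 := by
    intro w hw
    have h1 := pow_gcd_eq_one.mpr ⟨hw, hexp w⟩
    have h2 : (Nat.card Z).gcd ℓ = 1 := by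
      have h3 : ¬ ℓ ∣ Nat.card Z := fun h => hcop (h.trans (Subgroup.card_subgroup_dvd_card Z))
      exact ((Nat.Prime.coprime_iff_not_dvd hℓ).mpr h3).symm
    rwa [h2, pow_one] at h1
  have hrZ' : ∀ y ∈ Z, r⁻¹ * y * r ∈ Z := by
    intro y hy
    have := hZnorm r⁻¹ y hy
    rwa [inv_inv] at this
  have hfixZ : ∀ y ∈ Z, r * y = y * r → y = 1 := fun y hy => hfix y (hZK y hy)
  -- a fixed point of r
  have hex : ∃ v₀ ∈ U, r • v₀ = v₀ ∧ v₀ ≠ 1 := by
    by_contra hcon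
    push Not at hcon
    have hbot : U = ⊥ := fp_lemma Z r hp hr hrZ' hfixZ U (fun y _ w hw => hU y w hw)
      (fun w hw => hU r w hw) (fun w _ h => hcopZ w h) hC (fun w hw h => hcon w hw h)
    rw [hbot] at hu₁
    rw [Subgroup.mem_bot.mp hu₁, smul_one] at hxu₁
    exact hxu₁ rfl
  obtain ⟨v₀, hv₀U, hrv₀, hv₀1⟩ := hex
  set W' : Subgroup V := closure ((fun z : G => z • v₀) '' (Z : Set G)) with hW'def
  have hv₀W' : v₀ ∈ W' := Subgroup.subset_closure ⟨1, Z.one_mem, one_smul _ _⟩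
  have hW'U : W' ≤ U := by
    rw [hW'def, Subgroup.closure_le]
    rintro _ ⟨z, _, rfl⟩
    exact hU z v₀ hv₀U
  -- stabilizer
  have hZS : ∀ z ∈ Z, z ∈ invStab (G := G) W' := by
    intro z hz
    apply mem_invStab_of
    · exact smul_mem_closure_orbit Z v₀ z
        (fun z' hz' => ⟨z * z', Z.mul_mem hz hz', (mul_smul _ _ _).symm⟩)
    · exact smul_mem_closure_orbit Z v₀ z⁻¹
        (fun z' hz' => ⟨z⁻¹ * z', Z.mul_mem (Z.inv_mem hz) hz', (mul_smul _ _ _).symm⟩)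
  have hrinv : r⁻¹ • v₀ = v₀ := by
    rw [inv_smul_eq_iff, hrv₀]
  have hrS : r ∈ invStab (G := G) W' := by
    apply mem_invStab_of
    · apply smul_mem_closure_orbit Z v₀ r
      intro z hz
      refine ⟨r * z * r⁻¹, hZnorm r z hz, ?_⟩
      rw [mul_smul, mul_smul, hrinv]
    · apply smul_mem_closure_orbit Z v₀ r⁻¹
      intro z hz
      refine ⟨r⁻¹ * z * r, hrZ' z hz, ?_⟩
      rw [mul_smul, mul_smul, hrv₀]
  -- Maschke
  have hcopS : (Nat.card (invStab (G := G) W')).Coprime (Nat.card V) :=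
    coprime_card_of_exp hℓ hexp hcop _
  obtain ⟨W, hWinv, hdisj, hsup⟩ := Cfsg.Agent.Lib.Helper90.maschke_elementary
    (A := ↥(invStab (G := G) W')) hℓ hexp hcopS W' (fun a x hx => (a.2 x).mpr hx)
  have hWZ : ∀ z ∈ Z, ∀ w ∈ W, z • w ∈ W := fun z hz w hw => hWinv ⟨z, hZS z hz⟩ w hw
  have hWr : ∀ w ∈ W, r • w ∈ W := fun w hw => hWinv ⟨r, hrS⟩ w hw
  have hW2 : W ⊓ U = ⊥ := by
    apply fp_lemma Z r hp hr hrZ' hfixZ (W ⊓ U)
    · intro y hy w hw; exact ⟨hWZ y hy w hw.1, hU y w hw.2⟩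
    · intro w hw; exact ⟨hWr w hw.1, hU r w hw.2⟩
    · intro w _ h; exact hcopZ w h
    · intro w hw h; exact hC w hw.2 h
    · intro w hw h
      by_contra hne
      have h1 : w ∈ zpowers v₀ := hcyc v₀ hv₀U w hw.2 hrv₀ h hv₀1
      have h2 : w ∈ W' := (Subgroup.zpowers_le.mpr hv₀W') h1
      have h3 : w ∈ W' ⊓ W := ⟨h2, hw.1⟩
      rw [hdisj] at h3
      exact hne (Subgroup.mem_bot.mp h3)
  have hUW' : U ≤ W' := by
    intro u hu
    have h1 : u ∈ W' ⊔ W := by rw [hsup]; exact Subgroup.mem_top u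
    obtain ⟨a, ha, b, hb, rfl⟩ := Subgroup.mem_sup.mp h1
    have h2 : b ∈ U := by
      have := U.mul_mem (U.inv_mem (hW'U ha)) hu
      rwa [inv_mul_cancel_left] at this
    have h3 : b ∈ W ⊓ U := ⟨hb, h2⟩
    rw [hW2] at h3
    rw [Subgroup.mem_bot.mp h3, mul_one]
    exact ha
  -- conclude
  intro k hk k' hk' u hu
  have hZprop : ∀ z ∈ Z, ∀ k ∈ K, ∀ u ∈ U, z • k • u = k • z • u := fun z hz => hz.2
  exact comm_of_cyclic_module Z U v₀ (fun z _ u hu => hU z u hu)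
    (fun z hz z' hz' u hu => hZprop z hz z' (hZK z' hz') u hu) hUW' hv₀U
    (MulDistribMulAction.toMonoidHom V k) (MulDistribMulAction.toMonoidHom V k')
    (fun u hu => hU k u hu) (fun u hu => hU k' u hu)
    (fun z hz u hu => (hZprop z hz k hk u hu).symm)
    (fun z hz u hu => (hZprop z hz k' hk' u hu).symm) u hu

/-- **Main theorem.** `K` normal nilpotent in `G`, `r ∈ G` with `r ^ p = 1` centralizing no
nonidentity element of `K`; `G` acts on the elementary abelian `ℓ`-group `V`, `ℓ ∤ |G|`.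
If the fixed points of `r` on the invariant subgroup `U` form a cyclic group, then `K` acts
on `U` as an abelian group. -/
theorem comm_of_frob (K : Subgroup G) [K.Normal] (hnil : Group.IsNilpotent K) (r : G) {p : ℕ}
    (hp : p.Prime) (hr : r ^ p = 1) (hfix : ∀ k ∈ K, r * k = k * r → k = 1)
    {ℓ : ℕ} (hℓ : ℓ.Prime) (hexp : ∀ v : V, v ^ ℓ = 1) (hcop : ¬ ℓ ∣ Nat.card G) :
    ∀ n : ℕ, ∀ U : Subgroup V, Nat.card U ≤ n → (∀ g : G, ∀ u ∈ U, g • u ∈ U) →
      (∀ u ∈ U, ∀ u' ∈ U, r • u = u → r • u' = u' → u ≠ 1 → u' ∈ zpowers u) →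
      ∀ k ∈ K, ∀ k' ∈ K, ∀ u ∈ U, k • k' • u = k' • k • u := by
  intro n
  induction n with
  | zero =>
    intro U hcard
    exact absurd hcard (by have := Nat.card_pos (α := U); omega)
  | succ n ih =>
    intro U hcard hU hcyc
    by_cases hirr : ∀ W : Subgroup V, W ≤ U → (∀ g : G, ∀ w ∈ W, g • w ∈ W) → W = ⊥ ∨ W = U
    · exact comm_of_irred K hnil r hp hr hfix hℓ hexp hcop U hU hcyc hirr
    · push Not at hirr
      obtain ⟨W, hWU, hWinv, hWbot, hWne⟩ := hirr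
      have hcopG : (Nat.card G).Coprime (Nat.card V) := by
        have := coprime_card_of_exp (V := V) hℓ hexp hcop (⊤ : Subgroup G)
        rwa [Subgroup.card_top] at this
      obtain ⟨W₂', hW₂'inv, hdisj, hsup⟩ := Cfsg.Agent.Lib.Helper90.maschke_elementary
        (A := G) hℓ hexp hcopG W hWinv
      have hlt : ∀ W₁ : Subgroup V, W₁ ≤ U → W₁ ≠ U → Nat.card W₁ ≤ n := by
        intro W₁ hle hne
        by_contra hcon
        exact hne (Subgroup.eq_of_le_of_card_ge hle (by omega))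
      have hcycW : ∀ W₁ : Subgroup V, W₁ ≤ U → (∀ u ∈ W₁, ∀ u' ∈ W₁, r • u = u → r • u' = u' →
          u ≠ 1 → u' ∈ zpowers u) :=
        fun W₁ hle u hu u' hu' => hcyc u (hle hu) u' (hle hu')
      have h1 := ih W (hlt W hWU hWne) hWinv (hcycW W hWU)
      have hW₂ne : W₂' ⊓ U ≠ U := by
        intro h
        have h0 : U ≤ W₂' := by
          rw [← h]
          exact inf_le_left
        have h2 : W ≤ W ⊓ W₂' := le_inf le_rfl (hWU.trans h0)
        rw [hdisj] at h2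
        exact hWbot (le_bot_iff.mp h2)
      have h2 := ih (W₂' ⊓ U) (hlt _ inf_le_right hW₂ne)
        (fun g u hu => ⟨hW₂'inv g u hu.1, hU g u hu.2⟩) (hcycW _ inf_le_right)
      intro k hk k' hk' u hu
      have h3 : u ∈ W ⊔ W₂' := by rw [hsup]; exact Subgroup.mem_top u
      obtain ⟨a, ha, b, hb, rfl⟩ := Subgroup.mem_sup.mp h3
      have hbU : b ∈ U := by
        have := U.mul_mem (U.inv_mem (hWU ha)) hu
        rwa [inv_mul_cancel_left] at this
      rw [smul_mul', smul_mul', smul_mul', smul_mul', h1 k hk k' hk' a ha,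
        h2 k hk k' hk' b ⟨hb, hbU⟩]

end

end Cfsg.Agent.Lib.Helper97.FrobAct
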