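-- A counting form of Galois theory for commutative rings: if a finite group `E` acts on a finite
-- commutative ring `A` with fixed ring a field `K` and there are elements `x i, y i` with
-- `∑ x i * e (y i) = δ_{e,1}`, then `|A| = |K| ^ |E|`.
import Mathlib

set_option autoImplicit false

namespace Cfsg.Agent.Lib.Helper97.GaloisCount

open Module

theorem galois_card {K A E : Type*} [Field K] [CommRing A] [Algebra K A] [Finite A] [Nontrivial A]
    [Group E] [Fintype E] [DecidableEq E] (τ : E →* (A ≃+* A))
    (hK : ∀ (e : E) (k : K), τ e (algebraMap K A k) = algebraMap K A k)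
    (hfix : ∀ a : A, (∀ e, τ e a = a) → ∃ k : K, algebraMap K A k = a)
    {ι : Type*} [Fintype ι] (x y : ι → A)
    (hxy : ∀ e : E, ∑ i, x i * τ e (y i) = if e = 1 then 1 else 0) :
    Nat.card A = Nat.card K ^ Fintype.card E := by
  classical
  have hKfin : Finite K := Finite.of_injective (algebraMap K A) (algebraMap K A).injective
  have hKfree : Module.Finite K A := Module.Finite.of_finite
  set d := finrank K A with hd
  -- the linear maps τ e
  let lin : E → (A →ₗ[K] A) := fun e =>
    { toFun := τ e
      map_add' := fun a b => map_add (τ e) a b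
      map_smul' := fun k a => by
        simp only [Algebra.smul_def, map_mul, hK, RingHom.id_apply] }
  have hlin : ∀ e a, lin e a = τ e a := fun _ _ => rfl
  let Λ : (E → A) → (A →ₗ[K] A) := fun c => ∑ e, (LinearMap.mulLeft K (c e)).comp (lin e)
  have hΛ : ∀ c a, Λ c a = ∑ e, c e * τ e a := by
    intro c a
    simp only [Λ, LinearMap.sum_apply, LinearMap.comp_apply, LinearMap.mulLeft_apply, hlin]
  -- translated relations
  have hxy' : ∀ g e : E, ∑ i, τ g (x i) * τ e (y i) = if e = g then 1 else 0 := by
    intro g e
    have h1 := congrArg (τ g) (hxy (g⁻¹ * e))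
    rw [map_sum] at h1
    have h2 : ∀ i, τ g (x i * τ (g⁻¹ * e) (y i)) = τ g (x i) * τ e (y i) := by
      intro i
      rw [map_mul]
      congr 1
      have h3 : τ g (τ (g⁻¹ * e) (y i)) = (τ g * τ (g⁻¹ * e)) (y i) := rfl
      rw [h3, ← map_mul, mul_inv_cancel_left]
    rw [Finset.sum_congr rfl (fun i _ => h2 i)] at h1
    rw [h1]
    by_cases h : e = g
    · subst h
      simp
    · have h4 : g⁻¹ * e ≠ 1 := by
        intro h5
        apply h
        have := congrArg (fun t => g * t) h5
        simpa using this
      simp [h, h4]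
  -- trace identity
  have htr : ∀ a : A, ∑ i, x i * (∑ e, τ e (y i * a)) = a := by
    intro a
    have h1 : ∑ i, x i * (∑ e, τ e (y i * a)) = ∑ e, (∑ i, x i * τ e (y i)) * τ e a := by
      simp only [Finset.mul_sum, Finset.sum_mul, map_mul]
      rw [Finset.sum_comm]
      apply Finset.sum_congr rfl
      intro e _
      apply Finset.sum_congr rfl
      intro i _
      ring
    rw [h1]
    simp only [hxy]
    simp
  have htrK : ∀ b : A, ∃ k : K, algebraMap K A k = ∑ e, τ e b := by
    intro b
    apply hfix
    intro g
    rw [map_sum]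
    have h1 := Equiv.sum_comp (Equiv.mulLeft g) (fun e => τ e b)
    rw [← h1]
    apply Finset.sum_congr rfl
    intro e _
    change τ g (τ e b) = τ (g * e) b
    rw [map_mul]
    rfl
  -- Λ is injective
  have hinj : Function.Injective Λ := by
    intro c c' hcc
    funext g
    have hrec : ∀ c : E → A, c g = ∑ i, Λ c (y i) * τ g (x i) := by
      intro c
      simp only [hΛ, Finset.sum_mul]
      rw [Finset.sum_comm]
      have h2 : ∀ e, ∑ i, c e * τ e (y i) * τ g (x i) = c e * (if e = g then 1 else 0) := by
        intro e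
        rw [← hxy' g e, Finset.mul_sum]
        apply Finset.sum_congr rfl
        intro i _
        ring
      rw [Finset.sum_congr rfl (fun e _ => h2 e)]
      simp
    rw [hrec c, hrec c', hcc]
  -- Λ is surjective
  have hsurj : Function.Surjective Λ := by
    intro f
    refine ⟨fun e => ∑ i, f (x i) * τ e (y i), ?_⟩
    apply LinearMap.ext
    intro a
    rw [hΛ]
    choose k hk using fun i => htrK (y i * a)
    have h1 : ∑ e, (∑ i, f (x i) * τ e (y i)) * τ e a = ∑ i, f (x i) * ∑ e, τ e (y i * a) := by
      simp only [Finset.mul_sum, Finset.sum_mul, map_mul]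
      rw [Finset.sum_comm]
      apply Finset.sum_congr rfl
      intro i _
      apply Finset.sum_congr rfl
      intro e _
      ring
    rw [h1]
    have h2 : ∀ i, f (x i) * ∑ e, τ e (y i * a) = f (x i * ∑ e, τ e (y i * a)) := by
      intro i
      rw [← hk i, mul_comm (x i), ← Algebra.smul_def, map_smul, Algebra.smul_def, mul_comm]
    rw [Finset.sum_congr rfl (fun i _ => h2 i), ← map_sum, htr]
  -- cardinalities
  have hc1 : Nat.card (E → A) = Nat.card (A →ₗ[K] A) :=
    Nat.card_congr (Equiv.ofBijective Λ ⟨hinj, hsurj⟩)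
  have hc2 : Nat.card (E → A) = Nat.card A ^ Fintype.card E := by
    rw [Nat.card_fun, Nat.card_eq_fintype_card (α := E)]
  have hc3 : Nat.card (A →ₗ[K] A) = Nat.card K ^ (d * d) := by
    rw [Module.natCard_eq_pow_finrank (K := K) (V := A →ₗ[K] A), Module.finrank_linearMap]
  have hc4 : Nat.card A = Nat.card K ^ d := Module.natCard_eq_pow_finrank (K := K) (V := A)
  have hK2 : 2 ≤ Nat.card K := by
    have : Nontrivial K := inferInstance
    exact Finite.one_lt_card
  have hdpos : 0 < d := Module.finrank_pos
  have h5 : Nat.card K ^ (d * Fintype.card E) = Nat.card K ^ (d * d) := by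
    rw [pow_mul, ← hc4, ← hc2, hc1, hc3]
  have h6 : d * Fintype.card E = d * d := Nat.pow_right_injective hK2 h5
  have h7 : Fintype.card E = d := Nat.eq_of_mul_eq_mul_left hdpos h6
  rw [hc4, h7]

/-- Version with the fixed ring given as a subtype; the fixed ring only needs to have no zero
divisors. -/
theorem galois_card' {A E : Type*} [CommRing A] [Finite A] [Nontrivial A]
    [Group E] [Fintype E] [DecidableEq E] (τ : E →* (A ≃+* A))
    (hdom : ∀ a b : A, (∀ e, τ e a = a) → (∀ e, τ e b = b) → a * b = 0 → a = 0 ∨ b = 0)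
    {ι : Type*} [Fintype ι] (x y : ι → A)
    (hxy : ∀ e : E, ∑ i, x i * τ e (y i) = if e = 1 then 1 else 0) :
    Nat.card A = Nat.card {a : A // ∀ e, τ e a = a} ^ Fintype.card E := by
  classical
  let F : Subring A :=
    { carrier := {a | ∀ e, τ e a = a}
      mul_mem' := fun {a b} ha hb e => by rw [map_mul, ha e, hb e]
      one_mem' := fun e => map_one (τ e)
      add_mem' := fun {a b} ha hb e => by rw [map_add, ha e, hb e]
      zero_mem' := fun e => map_zero (τ e)
      neg_mem' := fun {a} ha e => by rw [map_neg, ha e] }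
  have hFmem : ∀ a : A, a ∈ F ↔ ∀ e, τ e a = a := fun a => Iff.rfl
  have hnzd : NoZeroDivisors F := by
    refine ⟨?_⟩
    intro a b hab
    have h1 : (a : A) * (b : A) = 0 := by
      have := congrArg Subtype.val hab
      simpa using this
    rcases hdom a b a.2 b.2 h1 with h | h
    · exact Or.inl (Subtype.ext h)
    · exact Or.inr (Subtype.ext h)
  have hdomF : IsDomain F := NoZeroDivisors.to_isDomain F
  have hfin : Fintype F := Fintype.ofFinite F
  letI fld : Field F := Fintype.fieldOfDomain F
  have key := @galois_card F A E fld _ (Algebra.ofSubsemiring F) _ _ _ _ _ τ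
    (fun e k => k.2 e) (fun a ha => ⟨⟨a, ha⟩, rfl⟩) ι _ x y hxy
  exact key

end Cfsg.Agent.Lib.Helper97.GaloisCount
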