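-- The irreducible case of the Frobenius fixed-point count: an abelian-acting group `Z` with a
-- group `E` of fixed-point-free operators, acting irreducibly on `M` with `C_M(Z) = 0`, gives
-- `|M| = |C_M(E)| ^ |E|`.
import Mathlib
import Cfsg.Agent.Lib.Helper97.GaloisCount

set_option autoImplicit false

namespace Cfsg.Agent.Lib.Helper97.FrobCount

open Cfsg.Agent.Lib.Helper97.GaloisCount

section
variable {M Z E : Type*} [AddCommGroup M] [Finite M] [Group Z] [Finite Z] [Group E] [Finite E]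

theorem irr_count (ζ : Z →* AddMonoid.End M) (ε : E →* AddMonoid.End M) (θ : E →* MulAut Z)
    (h1 : ∀ e z, ε e * ζ z = ζ (θ e z) * ε e)
    (h2 : ∀ e : E, e ≠ 1 → ∀ z : Z, θ e z = z → z = 1)
    (h3 : ∀ z z', ζ z * ζ z' = ζ z' * ζ z)
    (h4 : ∀ m : M, (∀ z, ζ z m = m) → m = 0)
    (h5 : ∀ W : AddSubgroup M, (∀ z, ∀ w ∈ W, ζ z w ∈ W) → (∀ e, ∀ w ∈ W, ε e w ∈ W) →
      W = ⊥ ∨ W = ⊤)
    {ℓ : ℕ} (hℓ : ℓ.Prime) (hexp : ∀ m : M, ℓ • m = 0) (hcop : ¬ ℓ ∣ Nat.card Z) :
    Nat.card M = Nat.card {m : M // ∀ e, ε e m = m} ^ Nat.card E := by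
  classical
  rcases subsingleton_or_nontrivial M with hsub | hnon
  · have h0 : Nat.card M = 1 := Nat.card_eq_one_iff_unique.mpr ⟨hsub, ⟨0⟩⟩
    have h0' : Nat.card {m : M // ∀ e, ε e m = m} = 1 :=
      Nat.card_eq_one_iff_unique.mpr ⟨inferInstance, ⟨⟨0, fun e => map_zero _⟩⟩⟩
    rw [h0, h0', one_pow]
  have hfZ : Fintype Z := Fintype.ofFinite Z
  have hfE : Fintype E := Fintype.ofFinite E
  have hfR : Finite (AddMonoid.End M) :=
    Finite.of_injective (fun f : AddMonoid.End M => (f : M → M)) DFunLike.coe_injective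
  have hεinv : ∀ e : E, ε e * ε e⁻¹ = 1 := fun e => by rw [← map_mul, mul_inv_cancel, map_one]
  have hεinv' : ∀ e : E, ε e⁻¹ * ε e = 1 := fun e => by rw [← map_mul, inv_mul_cancel, map_one]
  -- the commutative ring generated by `Z`
  set S : Set (AddMonoid.End M) := Set.range ζ with hS
  have hScomm : ∀ a ∈ S, ∀ b ∈ S, a * b = b * a := by
    rintro _ ⟨z, rfl⟩ _ ⟨z', rfl⟩
    exact h3 z z'
  set 𝔸 : Subring (AddMonoid.End M) := Subring.closure S with h𝔸
  letI cr : CommRing 𝔸 := Subring.closureCommRingOfComm hScomm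
  have hconj : ∀ (e : E) (a : AddMonoid.End M), a ∈ 𝔸 → ε e * a * ε e⁻¹ ∈ 𝔸 := by
    intro e a ha
    induction ha using Subring.closure_induction with
    | mem x hx =>
      obtain ⟨z, rfl⟩ := hx
      have h6 : ε e * ζ z * ε e⁻¹ = ζ (θ e z) := by rw [h1, mul_assoc, hεinv, mul_one]
      rw [h6]
      exact Subring.subset_closure ⟨_, rfl⟩
    | zero =>
      rw [mul_zero, zero_mul]
      exact Subring.zero_mem _
    | one =>
      rw [mul_one, hεinv]
      exact Subring.one_mem _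
    | add x y _ _ hx hy =>
      rw [mul_add, add_mul]
      exact Subring.add_mem _ hx hy
    | neg x _ hx =>
      rw [mul_neg, neg_mul]
      exact Subring.neg_mem _ hx
    | mul x y _ _ hx hy =>
      have h6 : ε e * (x * y) * ε e⁻¹ = (ε e * x * ε e⁻¹) * (ε e * y * ε e⁻¹) := by
        calc ε e * (x * y) * ε e⁻¹ = ε e * x * 1 * y * ε e⁻¹ := by simp only [mul_one, mul_assoc]
          _ = ε e * x * (ε e⁻¹ * ε e) * y * ε e⁻¹ := by rw [hεinv' e]
          _ = (ε e * x * ε e⁻¹) * (ε e * y * ε e⁻¹) := by simp only [mul_assoc]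
      rw [h6]
      exact Subring.mul_mem _ hx hy
  have hconj' : ∀ (e : E) (a : AddMonoid.End M), a ∈ 𝔸 → ε e⁻¹ * a * ε e ∈ 𝔸 := by
    intro e a ha
    have := hconj e⁻¹ a ha
    rwa [inv_inv] at this
  have hval_mul : ∀ a b : 𝔸, ((a * b : 𝔸) : AddMonoid.End M) = a.1 * b.1 := fun _ _ => rfl
  have hval_add : ∀ a b : 𝔸, ((a + b : 𝔸) : AddMonoid.End M) = a.1 + b.1 := fun _ _ => rfl
  have hval_one : ((1 : 𝔸) : AddMonoid.End M) = 1 := rfl
  have hval_zero : ((0 : 𝔸) : AddMonoid.End M) = 0 := rfl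
  -- the action of `E` on `𝔸`
  let τ₀ : E → (𝔸 ≃+* 𝔸) := fun e =>
    { toFun := fun a => ⟨ε e * a.1 * ε e⁻¹, hconj e a.1 a.2⟩
      invFun := fun a => ⟨ε e⁻¹ * a.1 * ε e, hconj' e a.1 a.2⟩
      left_inv := fun a => Subtype.ext (by
        change ε e⁻¹ * (ε e * a.1 * ε e⁻¹) * ε e = a.1
        calc ε e⁻¹ * (ε e * a.1 * ε e⁻¹) * ε e = (ε e⁻¹ * ε e) * a.1 * (ε e⁻¹ * ε e) := by
              simp only [mul_assoc]
          _ = a.1 := by rw [hεinv', one_mul, mul_one])
      right_inv := fun a => Subtype.ext (by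
        change ε e * (ε e⁻¹ * a.1 * ε e) * ε e⁻¹ = a.1
        calc ε e * (ε e⁻¹ * a.1 * ε e) * ε e⁻¹ = (ε e * ε e⁻¹) * a.1 * (ε e * ε e⁻¹) := by
              simp only [mul_assoc]
          _ = a.1 := by rw [hεinv, one_mul, mul_one])
      map_mul' := fun a b => Subtype.ext (by
        change ε e * (a.1 * b.1) * ε e⁻¹ = (ε e * a.1 * ε e⁻¹) * (ε e * b.1 * ε e⁻¹)
        calc ε e * (a.1 * b.1) * ε e⁻¹ = ε e * a.1 * 1 * b.1 * ε e⁻¹ := by
              simp only [mul_one, mul_assoc]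
          _ = ε e * a.1 * (ε e⁻¹ * ε e) * b.1 * ε e⁻¹ := by rw [hεinv' e]
          _ = (ε e * a.1 * ε e⁻¹) * (ε e * b.1 * ε e⁻¹) := by simp only [mul_assoc])
      map_add' := fun a b => Subtype.ext (by
        change ε e * (a.1 + b.1) * ε e⁻¹ = ε e * a.1 * ε e⁻¹ + ε e * b.1 * ε e⁻¹
        rw [mul_add, add_mul]) }
  have hτ₀ : ∀ e (a : 𝔸), ((τ₀ e a : 𝔸) : AddMonoid.End M) = ε e * a.1 * ε e⁻¹ := fun _ _ => rfl
  let τ : E →* (𝔸 ≃+* 𝔸) :=
    { toFun := τ₀
      map_one' := RingEquiv.ext (fun a => Subtype.ext (by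
        change ε 1 * a.1 * ε 1⁻¹ = a.1
        rw [inv_one, map_one, one_mul, mul_one]))
      map_mul' := fun e e' => RingEquiv.ext (fun a => Subtype.ext (by
        change ε (e * e') * a.1 * ε (e * e')⁻¹ = ε e * (ε e' * a.1 * ε e'⁻¹) * ε e⁻¹
        rw [mul_inv_rev, map_mul, map_mul]
        simp only [mul_assoc])) }
  have hτ : ∀ e (a : 𝔸), ((τ e a : 𝔸) : AddMonoid.End M) = ε e * a.1 * ε e⁻¹ := fun _ _ => rfl
  have hτε : ∀ e (a : 𝔸), ε e * a.1 = (τ e a : 𝔸).1 * ε e := by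
    intro e a
    rw [hτ, mul_assoc, hεinv', mul_one]
  have hfA : Finite 𝔸 := inferInstance
  have hnA : Nontrivial 𝔸 := by
    refine ⟨⟨0, 1, ?_⟩⟩
    intro h01
    obtain ⟨m, hm⟩ := exists_ne (0 : M)
    apply hm
    have h6 : ((0 : 𝔸) : AddMonoid.End M) m = ((1 : 𝔸) : AddMonoid.End M) m := by rw [h01]
    exact h6.symm
  -- the elements `x z`, `y z`
  let ζ' : Z → 𝔸 := fun z => ⟨ζ z, Subring.subset_closure ⟨z, rfl⟩⟩
  have hζ'mul : ∀ a b : Z, ζ' a * ζ' b = ζ' (a * b) := fun a b =>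
    Subtype.ext (map_mul ζ a b).symm
  have hζ'one : ζ' 1 = 1 := Subtype.ext (map_one ζ)
  have hτζ : ∀ e z, τ e (ζ' z) = ζ' (θ e z) := by
    intro e z
    apply Subtype.ext
    change ε e * ζ z * ε e⁻¹ = ζ (θ e z)
    rw [h1, mul_assoc, hεinv, mul_one]
  have hsum0 : ∑ z, ζ z = 0 := by
    have hmul : ∀ z', ζ z' * ∑ z, ζ z = ∑ z, ζ z := by
      intro z'
      rw [Finset.mul_sum, ← Equiv.sum_comp (Equiv.mulLeft z') (fun z => ζ z)]
      apply Finset.sum_congr rfl
      intro z _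
      rw [← map_mul]
      rfl
    ext m
    apply h4
    intro z'
    have h6 : ζ z' ((∑ z, ζ z) m) = (ζ z' * ∑ z, ζ z) m := rfl
    rw [h6, hmul]
  have hsum0' : ∑ z, ζ' z = 0 := by
    apply Subtype.ext
    have h6 : ((∑ z, ζ' z : 𝔸) : AddMonoid.End M) = ∑ z, ζ z := map_sum 𝔸.subtype ζ' Finset.univ
    rw [h6, hsum0]
    rfl
  have hℓA : (ℓ : 𝔸) = 0 := by
    apply Subtype.ext
    change (ℓ : AddMonoid.End M) = 0
    ext m
    change ℓ • m = 0
    exact hexp m
  have hcopn : Nat.Coprime (Nat.card Z) ℓ :=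
    ((Nat.Prime.coprime_iff_not_dvd hℓ).mpr hcop).symm
  obtain ⟨m₀, -, hm₀⟩ := Nat.exists_mul_mod_eq_one_of_coprime hcopn hℓ.one_lt
  have hm₀A : (m₀ : 𝔸) * (Nat.card Z : 𝔸) = 1 := by
    have h6 : Nat.card Z * m₀ = ℓ * (Nat.card Z * m₀ / ℓ) + 1 := by
      have := Nat.div_add_mod (Nat.card Z * m₀) ℓ
      rw [hm₀] at this
      exact this.symm
    have h7 : ((Nat.card Z * m₀ : ℕ) : 𝔸) = 1 := by
      rw [h6]
      push_cast
      rw [hℓA, zero_mul, zero_add]
    rw [mul_comm, ← Nat.cast_mul, h7]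
  let x : Z → 𝔸 := fun z => (m₀ : 𝔸) * ζ' z⁻¹
  let y : Z → 𝔸 := ζ'
  have hxy : ∀ e : E, ∑ z, x z * τ e (y z) = if e = 1 then 1 else 0 := by
    intro e
    have h6 : ∑ z, x z * τ e (y z) = (m₀ : 𝔸) * ∑ z, ζ' (z⁻¹ * θ e z) := by
      rw [Finset.mul_sum]
      apply Finset.sum_congr rfl
      intro z _
      change (m₀ : 𝔸) * ζ' z⁻¹ * τ e (ζ' z) = (m₀ : 𝔸) * ζ' (z⁻¹ * θ e z)
      rw [hτζ, mul_assoc, hζ'mul]
    rw [h6]
    by_cases he : e = 1
    · subst he
      rw [if_pos rfl]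
      have h7 : ∑ z : Z, ζ' (z⁻¹ * θ 1 z) = (Nat.card Z : 𝔸) := by
        have h8 : ∀ z : Z, ζ' (z⁻¹ * θ 1 z) = 1 := by
          intro z
          rw [map_one, MulAut.one_apply, inv_mul_cancel, hζ'one]
        rw [Finset.sum_congr rfl (fun z _ => h8 z)]
        simp [Nat.card_eq_fintype_card]
      rw [h7, hm₀A]
    · rw [if_neg he]
      let σ : Z → Z := fun z => z⁻¹ * θ e z
      have hσinj : Function.Injective σ := by
        intro a b hab
        have h7 : a⁻¹ * θ e a = b⁻¹ * θ e b := hab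
        have h8 : θ e (b * a⁻¹) = b * a⁻¹ := by
          rw [map_mul, map_inv]
          have h9 : θ e a = a * (b⁻¹ * θ e b) := by rw [← h7, mul_inv_cancel_left]
          rw [h9]
          group
        have h10 := h2 e he _ h8
        exact (mul_inv_eq_one.mp h10).symm
      have hσbij : Function.Bijective σ := Finite.injective_iff_bijective.mp hσinj
      have h11 := Equiv.sum_comp (Equiv.ofBijective σ hσbij) (fun z => ζ' z)
      have h12 : ∑ z, ζ' (z⁻¹ * θ e z) = ∑ z, ζ' z := h11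
      rw [h12, hsum0', mul_zero]
  -- the fixed ring has no zero divisors
  have hdom : ∀ a b : 𝔸, (∀ e, τ e a = a) → (∀ e, τ e b = b) → a * b = 0 → a = 0 ∨ b = 0 := by
    intro a b ha _ hab
    have hεa : ∀ e, ε e * a.1 = a.1 * ε e := by
      intro e
      rw [hτε, ha e]
    have hζa : ∀ z, ζ z * a.1 = a.1 * ζ z := by
      intro z
      have h6 : ζ' z * a = a * ζ' z := mul_comm _ _
      exact congrArg Subtype.val h6
    let K₀ : AddSubgroup M :=
      { carrier := {w | a.1 w = 0}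
        add_mem' := fun {u v} hu hv => by
          change a.1 (u + v) = 0
          rw [map_add, hu, hv, add_zero]
        zero_mem' := map_zero _
        neg_mem' := fun {u} hu => by
          change a.1 (-u) = 0
          rw [map_neg, hu, neg_zero] }
    have hker := h5 K₀ (by
      intro z w hw
      have hw' : a.1 w = 0 := hw
      change a.1 (ζ z w) = 0
      have h6 : a.1 (ζ z w) = (a.1 * ζ z) w := rfl
      rw [h6, ← hζa]
      change ζ z (a.1 w) = 0
      rw [hw', map_zero]) (by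
      intro e w hw
      have hw' : a.1 w = 0 := hw
      change a.1 (ε e w) = 0
      have h6 : a.1 (ε e w) = (a.1 * ε e) w := rfl
      rw [h6, ← hεa]
      change ε e (a.1 w) = 0
      rw [hw', map_zero])
    rcases hker with hk | hk
    · right
      have hinj : ∀ u : M, a.1 u = 0 → u = 0 := by
        intro u hu
        have h6 : u ∈ K₀ := hu
        rw [hk] at h6
        exact AddSubgroup.mem_bot.mp h6
      apply Subtype.ext
      ext m
      apply hinj
      have h6 : a.1 (b.1 m) = ((a * b : 𝔸) : AddMonoid.End M) m := rfl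
      rw [h6, hab]
      rfl
    · left
      apply Subtype.ext
      ext m
      have h6 : m ∈ K₀ := by rw [hk]; trivial
      exact h6
  -- a nonzero fixed vector
  have hc : ∃ c : M, c ≠ 0 ∧ ∀ e, ε e c = c := by
    let T : AddMonoid.End M := ∑ e, ε e
    have hT : ∀ g, ε g * T = T := by
      intro g
      change ε g * ∑ e, ε e = ∑ e, ε e
      rw [Finset.mul_sum, ← Equiv.sum_comp (Equiv.mulLeft g) (fun e => ε e)]
      apply Finset.sum_congr rfl
      intro e _
      rw [← map_mul]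
      rfl
    have hdesc : ∑ z, (x z).1 * T * (y z).1 = 1 := by
      have h6 : ∀ z, (x z).1 * T * (y z).1 = ∑ e, ((x z * τ e (y z) : 𝔸) : AddMonoid.End M) * ε e := by
        intro z
        change (x z).1 * (∑ e, ε e) * (y z).1 = _
        rw [Finset.mul_sum, Finset.sum_mul]
        apply Finset.sum_congr rfl
        intro e _
        calc (x z).1 * ε e * (y z).1 = (x z).1 * (ε e * (y z).1) := mul_assoc _ _ _
          _ = (x z).1 * ((τ e (y z)).1 * ε e) := by rw [hτε]
          _ = ((x z).1 * (τ e (y z)).1) * ε e := (mul_assoc _ _ _).symm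
          _ = ((x z * τ e (y z) : 𝔸) : AddMonoid.End M) * ε e := rfl
      rw [Finset.sum_congr rfl (fun z _ => h6 z), Finset.sum_comm]
      have h7 : ∀ e, ∑ z, ((x z * τ e (y z) : 𝔸) : AddMonoid.End M) * ε e =
          ((if e = 1 then (1 : 𝔸) else 0 : 𝔸) : AddMonoid.End M) * ε e := by
        intro e
        rw [← hxy e, ← Finset.sum_mul]
        congr 1
        exact (map_sum 𝔸.subtype (fun z => x z * τ e (y z)) Finset.univ).symm
      rw [Finset.sum_congr rfl (fun e _ => h7 e)]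
      rw [Finset.sum_eq_single 1]
      · rw [if_pos rfl, map_one, hval_one, one_mul]
      · intro e _ he
        rw [if_neg he, hval_zero, zero_mul]
      · intro h
        exact absurd (Finset.mem_univ _) h
    have hsumapp : ∀ (f : Z → AddMonoid.End M) (m : M), (∑ z, f z) m = ∑ z, f z m :=
      fun f m => map_sum (AddMonoidHom.eval m) f Finset.univ
    obtain ⟨w, hw⟩ := exists_ne (0 : M)
    by_contra hcon
    push Not at hcon
    apply hw
    have h6 : w = (∑ z, (x z).1 * T * (y z).1) w := by rw [hdesc]; rfl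
    rw [h6, hsumapp]
    apply Finset.sum_eq_zero
    intro z _
    have h7 : T ((y z).1 w) = 0 := by
      by_contra h8
      have h9 := hcon (T ((y z).1 w)) h8
      obtain ⟨e, he⟩ := h9
      apply he
      change (ε e * T) ((y z).1 w) = T ((y z).1 w)
      rw [hT]
    change (x z).1 (T ((y z).1 w)) = 0
    rw [h7, map_zero]
  obtain ⟨c, hc0, hcfix⟩ := hc
  -- evaluation at `c`
  let ev : 𝔸 →+ M :=
    { toFun := fun a => a.1 c
      map_zero' := rfl
      map_add' := fun _ _ => rfl }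
  have hev : ∀ a : 𝔸, ev a = a.1 c := fun _ => rfl
  have hrange : AddMonoidHom.range ev = ⊤ := by
    rcases h5 (AddMonoidHom.range ev) (by
      rintro z _ ⟨a, rfl⟩
      exact ⟨ζ' z * a, rfl⟩) (by
      rintro e _ ⟨a, rfl⟩
      refine ⟨τ e a, ?_⟩
      rw [hev, hev]
      have h6 : ε e (a.1 c) = (ε e * a.1) c := rfl
      rw [h6, hτε]
      change (τ e a).1 c = (τ e a).1 (ε e c)
      rw [hcfix]) with h | h
    · exfalso
      apply hc0
      have h6 : c ∈ AddMonoidHom.range ev := ⟨1, rfl⟩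
      rw [h] at h6
      exact AddSubgroup.mem_bot.mp h6
    · exact h
  have hsurj : Function.Surjective ev := AddMonoidHom.range_eq_top.mp hrange
  have hinj : Function.Injective ev := by
    rw [injective_iff_map_eq_zero]
    intro a ha
    apply Subtype.ext
    ext m
    obtain ⟨b, rfl⟩ := hsurj m
    rw [hev]
    have h6 : a.1 (b.1 c) = ((a * b : 𝔸) : AddMonoid.End M) c := rfl
    rw [h6, mul_comm]
    change b.1 (a.1 c) = 0
    rw [← hev a, ha, map_zero]
  have hcardA : Nat.card 𝔸 = Nat.card M := Nat.card_congr (Equiv.ofBijective ev ⟨hinj, hsurj⟩)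
  have hfixed : ∀ a : 𝔸, (∀ e, τ e a = a) ↔ ∀ e, ε e (ev a) = ev a := by
    intro a
    have h6 : ∀ e, ε e (ev a) = ev (τ e a) := by
      intro e
      rw [hev, hev]
      have h7 : ε e (a.1 c) = (ε e * a.1) c := rfl
      rw [h7, hτε]
      change (τ e a).1 (ε e c) = (τ e a).1 c
      rw [hcfix]
    constructor
    · intro h e
      rw [h6, h e]
    · intro h e
      apply hinj
      rw [← h6, h e]
  have hcardF : Nat.card {a : 𝔸 // ∀ e, τ e a = a} = Nat.card {m : M // ∀ e, ε e m = m} := by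
    apply Nat.card_congr
    refine Equiv.ofBijective (fun a => ⟨ev a.1, (hfixed a.1).mp a.2⟩) ⟨?_, ?_⟩
    · intro a b hab
      exact Subtype.ext (hinj (congrArg Subtype.val hab))
    · rintro ⟨m, hm⟩
      obtain ⟨a, rfl⟩ := hsurj m
      exact ⟨⟨a, (hfixed a).mpr hm⟩, rfl⟩
  have key := galois_card' τ hdom x y hxy
  rw [← hcardA, key, hcardF, Nat.card_eq_fintype_card (α := E)]

end

end Cfsg.Agent.Lib.Helper97.FrobCount
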