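-- The Frobenius fixed-point count for modules: a Frobenius group `U ⋊ E` acting on an elementary
-- abelian group `V` of coprime order.
import Mathlib
import Cfsg.Agent.Lib.Helper90.Maschke
import Cfsg.Agent.Lib.Helper91.Coprime2
import Cfsg.Agent.Lib.Helper97.FrobActMain
import Cfsg.Agent.Lib.Helper97.FrobCountIrr

set_option autoImplicit false

namespace Cfsg.Agent.Lib.Helper97.FrobCount

open Subgroup
open Cfsg.Agent.Lib.Helper97.FrobAct

section
variable {G V : Type*} [Group G] [CommGroup V] [MulDistribMulAction G V]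

/-- `W` is invariant under the subgroup `S`. -/
def IsInv (S : Subgroup G) (W : Subgroup V) : Prop := ∀ s ∈ S, ∀ w ∈ W, s • w ∈ W

/-- The fixed points of the subgroup `S` in `W`. -/
def fixIn (S : Subgroup G) (W : Subgroup V) : Subgroup V where
  carrier := {w | w ∈ W ∧ ∀ s ∈ S, s • w = w}
  mul_mem' := by
    rintro a b ⟨ha, ha'⟩ ⟨hb, hb'⟩
    exact ⟨W.mul_mem ha hb, fun s hs => by rw [smul_mul', ha' s hs, hb' s hs]⟩
  one_mem' := ⟨W.one_mem, fun s _ => smul_one s⟩
  inv_mem' := by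
    rintro a ⟨ha, ha'⟩
    exact ⟨W.inv_mem ha, fun s hs => by rw [smul_inv', ha' s hs]⟩

theorem mem_fixIn (S : Subgroup G) (W : Subgroup V) (w : V) :
    w ∈ fixIn S W ↔ w ∈ W ∧ ∀ s ∈ S, s • w = w := Iff.rfl

theorem fixIn_le (S : Subgroup G) (W : Subgroup V) : fixIn S W ≤ W := fun _ h => h.1

theorem isInv_sup (S : Subgroup G) (W₁ W₂ : Subgroup V) (h₁ : IsInv S W₁) (h₂ : IsInv S W₂) :
    IsInv S (W₁ ⊔ W₂) := by
  intro s hs w hw
  obtain ⟨a, ha, b, hb, rfl⟩ := Subgroup.mem_sup.mp hw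
  rw [smul_mul']
  exact Subgroup.mul_mem_sup (h₁ s hs a ha) (h₂ s hs b hb)

/-- cardinality of a direct sum -/
theorem card_sup_of_disjoint (A B : Subgroup V) (h : A ⊓ B = ⊥) :
    Nat.card ↥(A ⊔ B) = Nat.card A * Nat.card B := by
  have h1 := Cfsg.Agent.Lib.Helper91.card_sup_mul_card_inf_of_le_normalizer A B
    (by rw [Subgroup.normalizer_eq_top]; exact le_top)
  rw [h, Subgroup.card_bot, mul_one] at h1
  exact h1

theorem fixIn_sup (S : Subgroup G) (W₁ W₂ : Subgroup V) (h₁ : IsInv S W₁) (h₂ : IsInv S W₂)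
    (h : W₁ ⊓ W₂ = ⊥) : fixIn S (W₁ ⊔ W₂) = fixIn S W₁ ⊔ fixIn S W₂ := by
  apply le_antisymm
  · rintro w ⟨hw, hfix⟩
    obtain ⟨a, ha, b, hb, rfl⟩ := Subgroup.mem_sup.mp hw
    have key : ∀ s ∈ S, s • a = a ∧ s • b = b := by
      intro s hs
      have h3 := hfix s hs
      rw [smul_mul'] at h3
      have h4 : a⁻¹ * s • a = b * (s • b)⁻¹ := by
        rw [inv_mul_eq_iff_eq_mul, ← mul_assoc, eq_mul_inv_iff_mul_eq]
        exact h3
      have h5 : a⁻¹ * s • a ∈ W₁ ⊓ W₂ := by
        refine ⟨W₁.mul_mem (W₁.inv_mem ha) (h₁ s hs a ha), ?_⟩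
        rw [h4]
        exact W₂.mul_mem hb (W₂.inv_mem (h₂ s hs b hb))
      rw [h] at h5
      have h6 : a⁻¹ * s • a = 1 := Subgroup.mem_bot.mp h5
      have h7 : s • a = a := by
        rw [inv_mul_eq_one] at h6
        exact h6.symm
      refine ⟨h7, ?_⟩
      rw [h7] at h3
      exact mul_left_cancel h3
    exact Subgroup.mul_mem_sup ⟨ha, fun s hs => (key s hs).1⟩ ⟨hb, fun s hs => (key s hs).2⟩
  · apply sup_le
    · rintro w ⟨hw, hfix⟩
      exact ⟨Subgroup.mem_sup_left hw, hfix⟩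
    · rintro w ⟨hw, hfix⟩
      exact ⟨Subgroup.mem_sup_right hw, hfix⟩

theorem card_fixIn_sup [Finite V] (S : Subgroup G) (W₁ W₂ : Subgroup V) (h₁ : IsInv S W₁)
    (h₂ : IsInv S W₂) (h : W₁ ⊓ W₂ = ⊥) :
    Nat.card (fixIn S (W₁ ⊔ W₂)) = Nat.card (fixIn S W₁) * Nat.card (fixIn S W₂) := by
  rw [fixIn_sup S W₁ W₂ h₁ h₂ h]
  apply card_sup_of_disjoint
  rw [eq_bot_iff, ← h]
  exact inf_le_inf (fixIn_le S W₁) (fixIn_le S W₂)

end

section
variable {G V : Type*} [Group G] [CommGroup V] [MulDistribMulAction G V] [Finite G] [Finite V]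

/-- Induction over invariant subgroups using Maschke's theorem. -/
theorem maschke_induction (S : Subgroup G) {ℓ : ℕ} (hℓ : ℓ.Prime) (hexp : ∀ v : V, v ^ ℓ = 1)
    (hcop : ¬ ℓ ∣ Nat.card G) (P : Subgroup V → Prop)
    (hsum : ∀ W₁ W₂ : Subgroup V, IsInv S W₁ → IsInv S W₂ → W₁ ⊓ W₂ = ⊥ → P W₁ → P W₂ →
      P (W₁ ⊔ W₂))
    (hirr : ∀ W : Subgroup V, IsInv S W →
      (∀ W' : Subgroup V, W' ≤ W → IsInv S W' → W' = ⊥ ∨ W' = W) → P W) :
    ∀ W : Subgroup V, IsInv S W → P W := by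
  have key : ∀ n : ℕ, ∀ W : Subgroup V, Nat.card W ≤ n → IsInv S W → P W := by
    intro n
    induction n with
    | zero =>
      intro W hcard
      exact absurd hcard (by have := Nat.card_pos (α := W); omega)
    | succ n ih =>
      intro W hcard hW
      by_cases hir : ∀ W' : Subgroup V, W' ≤ W → IsInv S W' → W' = ⊥ ∨ W' = W
      · exact hirr W hW hir
      · push Not at hir
        obtain ⟨W₁, hW₁W, hW₁inv, hW₁bot, hW₁ne⟩ := hir
        have hcopS : (Nat.card S).Coprime (Nat.card V) := coprime_card_of_exp hℓ hexp hcop S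
        obtain ⟨W₂', hW₂'inv, hdisj, hsup⟩ := Cfsg.Agent.Lib.Helper90.maschke_elementary
          (A := ↥S) hℓ hexp hcopS W₁ (fun a x hx => hW₁inv a a.2 x hx)
        have hlt : ∀ W' : Subgroup V, W' ≤ W → W' ≠ W → Nat.card W' ≤ n := by
          intro W' hle hne
          by_contra hcon
          exact hne (Subgroup.eq_of_le_of_card_ge hle (by omega))
        have hW₂inv : IsInv S (W₂' ⊓ W) :=
          fun s hs w hw => ⟨hW₂'inv ⟨s, hs⟩ w hw.1, hW s hs w hw.2⟩
        have hW₂ne : W₂' ⊓ W ≠ W := by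
          intro h
          have h0 : W ≤ W₂' := by
            rw [← h]
            exact inf_le_left
          have h2 : W₁ ≤ W₁ ⊓ W₂' := le_inf le_rfl (hW₁W.trans h0)
          rw [hdisj] at h2
          exact hW₁bot (le_bot_iff.mp h2)
        have hd : W₁ ⊓ (W₂' ⊓ W) = ⊥ := by
          rw [eq_bot_iff, ← hdisj]
          exact inf_le_inf le_rfl inf_le_left
        have hs : W₁ ⊔ (W₂' ⊓ W) = W := by
          apply le_antisymm (sup_le hW₁W inf_le_right)
          intro u hu
          have h3 : u ∈ W₁ ⊔ W₂' := by rw [hsup]; exact Subgroup.mem_top u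
          obtain ⟨a, ha, b, hb, rfl⟩ := Subgroup.mem_sup.mp h3
          have hbW : b ∈ W := by
            have := W.mul_mem (W.inv_mem (hW₁W ha)) hu
            rwa [inv_mul_cancel_left] at this
          exact Subgroup.mul_mem_sup ha ⟨hb, hbW⟩
        have hP := hsum W₁ (W₂' ⊓ W) hW₁inv hW₂inv hd (ih W₁ (hlt W₁ hW₁W hW₁ne) hW₁inv)
          (ih _ (hlt _ inf_le_right hW₂ne) hW₂inv)
        rwa [hs] at hP
  intro W hW
  exact key (Nat.card W) W le_rfl hW

end

section
variable {G V : Type*} [Group G] [CommGroup V] [MulDistribMulAction G V]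

theorem isInv_sup_subgroup (Z E : Subgroup G) (W : Subgroup V) (hZ : IsInv Z W) (hE : IsInv E W) :
    IsInv (Z ⊔ E) W := by
  have h1 : Z ≤ invStab (G := G) W := fun z hz =>
    mem_invStab_of W z (hZ z hz) (hZ z⁻¹ (Z.inv_mem hz))
  have h2 : E ≤ invStab (G := G) W := fun e he =>
    mem_invStab_of W e (hE e he) (hE e⁻¹ (E.inv_mem he))
  intro s hs w hw
  exact ((sup_le h1 h2 hs) w).mpr hw

/-- The endomorphisms of `Additive W` induced by a subgroup leaving `W` invariant. -/
def actEnd (S : Subgroup G) (W : Subgroup V) (h : IsInv S W) :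
    ↥S →* AddMonoid.End (Additive ↥W) where
  toFun s :=
    { toFun := fun m => Additive.ofMul
        (⟨(s : G) • ((Additive.toMul m : ↥W) : V), h s s.2 _ (Additive.toMul m).2⟩ : ↥W)
      map_zero' := congrArg Additive.ofMul (Subtype.ext (smul_one _))
      map_add' := fun _ _ => congrArg Additive.ofMul (Subtype.ext (smul_mul' _ _ _)) }
  map_one' := AddMonoidHom.ext (fun _ => congrArg Additive.ofMul (Subtype.ext (one_smul G _)))
  map_mul' := fun s t =>
    AddMonoidHom.ext (fun _ => congrArg Additive.ofMul (Subtype.ext (mul_smul (s : G) (t : G) _)))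

theorem actEnd_apply (S : Subgroup G) (W : Subgroup V) (h : IsInv S W) (s : ↥S)
    (m : Additive ↥W) :
    ((Additive.toMul (actEnd S W h s m) : ↥W) : V) = (s : G) • ((Additive.toMul m : ↥W) : V) :=
  rfl

/-- Conjugation by the elements of `E` on a subgroup `Z` normalized by `E`. -/
def conjOn (E Z : Subgroup G) (h : ∀ e ∈ E, ∀ z ∈ Z, e * z * e⁻¹ ∈ Z) : ↥E →* MulAut ↥Z where
  toFun e :=
    { toFun := fun z => ⟨(e : G) * z * (e : G)⁻¹, h e e.2 z z.2⟩
      invFun := fun z => ⟨(e : G)⁻¹ * z * (e : G), by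
        have := h (e : G)⁻¹ (E.inv_mem e.2) z z.2
        rwa [inv_inv] at this⟩
      left_inv := fun z => Subtype.ext (by
        change (e : G)⁻¹ * ((e : G) * z * (e : G)⁻¹) * (e : G) = z
        group)
      right_inv := fun z => Subtype.ext (by
        change (e : G) * ((e : G)⁻¹ * z * (e : G)) * (e : G)⁻¹ = z
        group)
      map_mul' := fun a b => Subtype.ext (by
        change (e : G) * ((a : G) * (b : G)) * (e : G)⁻¹ =
          ((e : G) * a * (e : G)⁻¹) * ((e : G) * b * (e : G)⁻¹)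
        group) }
  map_one' := MulEquiv.ext (fun z => Subtype.ext (by
    change ((1 : ↥E) : G) * z * ((1 : ↥E) : G)⁻¹ = z
    simp))
  map_mul' := fun a b => MulEquiv.ext (fun z => Subtype.ext (by
    change ((a * b : ↥E) : G) * z * ((a * b : ↥E) : G)⁻¹ =
      (a : G) * ((b : G) * z * (b : G)⁻¹) * (a : G)⁻¹
    simp only [Subgroup.coe_mul]
    group))

theorem conjOn_apply (E Z : Subgroup G) (h : ∀ e ∈ E, ∀ z ∈ Z, e * z * e⁻¹ ∈ Z) (e : ↥E)
    (z : ↥Z) : ((conjOn E Z h e z : ↥Z) : G) = (e : G) * z * (e : G)⁻¹ := rfl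

end

section
variable {G V : Type*} [Group G] [CommGroup V] [MulDistribMulAction G V] [Finite G] [Finite V]

/-- The irreducible case of the count, in multiplicative form. -/
theorem zcore_irr (Z E : Subgroup G) (hEZ : ∀ e ∈ E, ∀ z ∈ Z, e * z * e⁻¹ ∈ Z)
    (hfpf : ∀ e ∈ E, e ≠ 1 → ∀ z ∈ Z, e * z = z * e → z = 1)
    {ℓ : ℕ} (hℓ : ℓ.Prime) (hexp : ∀ v : V, v ^ ℓ = 1) (hcop : ¬ ℓ ∣ Nat.card G)
    (W : Subgroup V) (hWZ : IsInv Z W) (hWE : IsInv E W)
    (hcomm : ∀ z ∈ Z, ∀ z' ∈ Z, ∀ w ∈ W, z • z' • w = z' • z • w)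
    (hfix : ∀ w ∈ W, (∀ z ∈ Z, z • w = w) → w = 1)
    (hirr : ∀ W' : Subgroup V, W' ≤ W → IsInv Z W' → IsInv E W' → W' = ⊥ ∨ W' = W) :
    Nat.card W = Nat.card (fixIn E W) ^ Nat.card E := by
  have hfinW : Finite (Additive ↥W) := inferInstanceAs (Finite ↥W)
  have key := irr_count (M := Additive ↥W) (actEnd Z W hWZ) (actEnd E W hWE) (conjOn E Z hEZ)
    (by
      intro e z
      refine AddMonoidHom.ext (fun m => congrArg Additive.ofMul (Subtype.ext ?_))
      change (e : G) • (z : G) • ((Additive.toMul m : ↥W) : V) =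
        ((e : G) * z * (e : G)⁻¹) • (e : G) • ((Additive.toMul m : ↥W) : V)
      simp [mul_smul])
    (by
      intro e he z hz
      have h1 : (e : G) * z * (e : G)⁻¹ = z := congrArg Subtype.val hz
      have h2 : (e : G) * z = z * e := by
        calc (e : G) * z = ((e : G) * z * (e : G)⁻¹) * e := by group
          _ = z * e := by rw [h1]
      exact Subtype.ext (hfpf e e.2 (fun h => he (Subtype.ext h)) z z.2 h2))
    (by
      intro z z'
      refine AddMonoidHom.ext (fun m => congrArg Additive.ofMul (Subtype.ext ?_))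
      exact hcomm z z.2 z' z'.2 _ (Additive.toMul m).2)
    (by
      intro m hm
      have h1 : ((Additive.toMul m : ↥W) : V) = 1 := by
        apply hfix _ (Additive.toMul m).2
        intro z hz
        have h2 := hm ⟨z, hz⟩
        exact congrArg (fun t : Additive ↥W => ((Additive.toMul t : ↥W) : V)) h2
      exact congrArg Additive.ofMul (Subtype.ext h1 : (Additive.toMul m : ↥W) = 1))
    (by
      intro W' hζ hε
      let W'' : Subgroup V := (AddSubgroup.toSubgroup' W').map W.subtype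
      have hmem : ∀ w : ↥W, (w : V) ∈ W'' ↔ Additive.ofMul w ∈ W' := by
        intro w
        constructor
        · rintro ⟨w', hw', hw'eq⟩
          have h1 : w' = w := Subtype.ext hw'eq
          rw [← h1]
          exact hw'
        · intro hw
          exact ⟨w, hw, rfl⟩
      have hle : W'' ≤ W := by
        rintro _ ⟨w', -, rfl⟩
        exact w'.2
      have hZ'' : IsInv Z W'' := by
        rintro z hz _ ⟨w', hw', rfl⟩
        exact (hmem ⟨z • (w' : V), hWZ z hz _ w'.2⟩).mpr (hζ ⟨z, hz⟩ _ hw')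
      have hE'' : IsInv E W'' := by
        rintro e he _ ⟨w', hw', rfl⟩
        exact (hmem ⟨e • (w' : V), hWE e he _ w'.2⟩).mpr (hε ⟨e, he⟩ _ hw')
      rcases hirr W'' hle hZ'' hE'' with h | h
      · left
        rw [AddSubgroup.eq_bot_iff_forall]
        intro m hm
        have h1 : ((Additive.toMul m : ↥W) : V) ∈ W'' := (hmem _).mpr hm
        rw [h] at h1
        have h2 : ((Additive.toMul m : ↥W) : V) = 1 := Subgroup.mem_bot.mp h1
        exact congrArg Additive.ofMul (Subtype.ext h2 : (Additive.toMul m : ↥W) = 1)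
      · right
        rw [AddSubgroup.eq_top_iff']
        intro m
        have h1 : ((Additive.toMul m : ↥W) : V) ∈ W'' := by
          rw [h]
          exact (Additive.toMul m).2
        exact (hmem _).mp h1)
    hℓ
    (by
      intro m
      have h1 : ((Additive.toMul m : ↥W) ^ ℓ : ↥W) = 1 := Subtype.ext (by
        rw [Subgroup.coe_pow]
        exact hexp _)
      exact congrArg Additive.ofMul h1)
    (fun h => hcop (h.trans (Subgroup.card_subgroup_dvd_card Z)))
  have hcard : Nat.card {m : Additive ↥W // ∀ e : ↥E, actEnd E W hWE e m = m} =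
      Nat.card (fixIn E W) := by
    apply Nat.card_congr
    refine
      { toFun := fun m => ⟨((Additive.toMul m.1 : ↥W) : V), (Additive.toMul m.1).2, fun e he =>
          congrArg (fun t : Additive ↥W => ((Additive.toMul t : ↥W) : V)) (m.2 ⟨e, he⟩)⟩
        invFun := fun v => ⟨Additive.ofMul (⟨v.1, v.2.1⟩ : ↥W), fun e =>
          congrArg Additive.ofMul (Subtype.ext (v.2.2 e e.2))⟩
        left_inv := fun m => Subtype.ext rfl
        right_inv := fun v => Subtype.ext rfl }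
  rw [hcard] at key
  exact key

/-- The count for a subgroup `Z` acting through an abelian group. -/
theorem zcore_count (Z E : Subgroup G) (hEZ : ∀ e ∈ E, ∀ z ∈ Z, e * z * e⁻¹ ∈ Z)
    (hfpf : ∀ e ∈ E, e ≠ 1 → ∀ z ∈ Z, e * z = z * e → z = 1)
    {ℓ : ℕ} (hℓ : ℓ.Prime) (hexp : ∀ v : V, v ^ ℓ = 1) (hcop : ¬ ℓ ∣ Nat.card G)
    (W : Subgroup V) (hWZ : IsInv Z W) (hWE : IsInv E W)
    (hcomm : ∀ z ∈ Z, ∀ z' ∈ Z, ∀ w ∈ W, z • z' • w = z' • z • w)
    (hfix : ∀ w ∈ W, (∀ z ∈ Z, z • w = w) → w = 1) :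
    Nat.card W = Nat.card (fixIn E W) ^ Nat.card E := by
  have hZS : ∀ W' : Subgroup V, IsInv (Z ⊔ E) W' → IsInv Z W' :=
    fun W' h z hz => h z (Subgroup.mem_sup_left hz)
  have hES : ∀ W' : Subgroup V, IsInv (Z ⊔ E) W' → IsInv E W' :=
    fun W' h e he => h e (Subgroup.mem_sup_right he)
  have key := maschke_induction (Z ⊔ E) hℓ hexp hcop
    (fun W => (∀ z ∈ Z, ∀ z' ∈ Z, ∀ w ∈ W, z • z' • w = z' • z • w) →
      (∀ w ∈ W, (∀ z ∈ Z, z • w = w) → w = 1) → Nat.card W = Nat.card (fixIn E W) ^ Nat.card E)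
    (by
      intro W₁ W₂ h₁ h₂ hd hP₁ hP₂ hc hf
      have e1 := hP₁ (fun z hz z' hz' w hw => hc z hz z' hz' w (Subgroup.mem_sup_left hw))
        (fun w hw => hf w (Subgroup.mem_sup_left hw))
      have e2 := hP₂ (fun z hz z' hz' w hw => hc z hz z' hz' w (Subgroup.mem_sup_right hw))
        (fun w hw => hf w (Subgroup.mem_sup_right hw))
      rw [card_sup_of_disjoint W₁ W₂ hd, card_fixIn_sup E W₁ W₂ (hES W₁ h₁) (hES W₂ h₂) hd,
        mul_pow, ← e1, ← e2])
    (by
      intro W hW hir hc hf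
      exact zcore_irr Z E hEZ hfpf hℓ hexp hcop W (hZS W hW) (hES W hW) hc hf
        (fun W' hle hZ' hE' => hir W' hle (isInv_sup_subgroup Z E W' hZ' hE')))
  exact key W (isInv_sup_subgroup Z E W hWZ hWE) hcomm hfix

end

section
variable {G V : Type*} [Group G] [CommGroup V] [MulDistribMulAction G V] [Finite G] [Finite V]

/-- If `U` (normal, nilpotent) has no fixed points on the invariant subgroup `W`, and every
nonidentity element of `E` centralizes no nonidentity element of `U`, then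
`|W| = |C_W(E)| ^ |E|`. -/
theorem count_of_fix_trivial (U E : Subgroup G) [U.Normal] (hnil : Group.IsNilpotent U)
    (hfpf : ∀ e ∈ E, e ≠ 1 → ∀ u ∈ U, e * u = u * e → u = 1)
    {ℓ : ℕ} (hℓ : ℓ.Prime) (hexp : ∀ v : V, v ^ ℓ = 1) (hcop : ¬ ℓ ∣ Nat.card G)
    (W : Subgroup V) (hW : ∀ g : G, ∀ w ∈ W, g • w ∈ W)
    (hfix : ∀ w ∈ W, (∀ u ∈ U, u • w = w) → w = 1) :
    Nat.card W = Nat.card (fixIn E W) ^ Nat.card E := by
  have key := maschke_induction (⊤ : Subgroup G) hℓ hexp hcop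
    (fun W => (∀ w ∈ W, (∀ u ∈ U, u • w = w) → w = 1) →
      Nat.card W = Nat.card (fixIn E W) ^ Nat.card E)
    (by
      intro W₁ W₂ h₁ h₂ hd hP₁ hP₂ hf
      have e1 := hP₁ (fun w hw => hf w (Subgroup.mem_sup_left hw))
      have e2 := hP₂ (fun w hw => hf w (Subgroup.mem_sup_right hw))
      rw [card_sup_of_disjoint W₁ W₂ hd,
        card_fixIn_sup E W₁ W₂ (fun e _ => h₁ e (Subgroup.mem_top e))
          (fun e _ => h₂ e (Subgroup.mem_top e)) hd, mul_pow, ← e1, ← e2])
    (by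
      intro W hWS hir hf
      have hWG : ∀ g : G, ∀ w ∈ W, g • w ∈ W := fun g w hw => hWS g (Subgroup.mem_top g) w hw
      rcases exists_zSub_nontrivial U hnil W hWG with htriv | ⟨x, hxZ, u₁, hu₁, hxu₁⟩
      · have hWbot : W = ⊥ := (Subgroup.eq_bot_iff_forall W).mpr
          (fun w hw => hf w hw (fun u hu => htriv u hu w hw))
        have h1 : Nat.card W = 1 := by
          rw [hWbot]
          exact Subgroup.card_bot
        have h2 : Nat.card (fixIn E W) = 1 := by
          have h3 : fixIn E W = ⊥ := by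
            rw [eq_bot_iff, ← hWbot]
            exact fixIn_le E W
          rw [h3]
          exact Subgroup.card_bot
        rw [h1, h2, one_pow]
      · have hZnorm : ∀ g : G, ∀ z ∈ zSub U W hWG, g * z * g⁻¹ ∈ zSub U W hWG :=
          fun g z hz => zSub_conj U W hWG g z hz
        have hCinv : IsInv (⊤ : Subgroup G) (fixIn (zSub U W hWG) W) := by
          rintro g - w ⟨hw, hw'⟩
          refine ⟨hWG g w hw, fun z hz => ?_⟩
          have h1 : g⁻¹ * z * g ∈ zSub U W hWG := by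
            have := hZnorm g⁻¹ z hz
            rwa [inv_inv] at this
          have h2 := hw' _ h1
          have h3 : z • g • w = g • (g⁻¹ * z * g) • w := by simp [mul_smul]
          rw [h3, h2]
        have hC : ∀ w ∈ W, (∀ z ∈ zSub U W hWG, z • w = w) → w = 1 := by
          intro w hw hz
          rcases hir _ (fixIn_le _ W) hCinv with h | h
          · have h4 : w ∈ fixIn (zSub U W hWG) W := ⟨hw, hz⟩
            rw [h] at h4
            exact Subgroup.mem_bot.mp h4
          · exfalso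
            have h4 : u₁ ∈ fixIn (zSub U W hWG) W := by rw [h]; exact hu₁
            exact hxu₁ (h4.2 x hxZ)
        exact zcore_count (zSub U W hWG) E (fun e _ z hz => hZnorm e z hz)
          (fun e he he1 z hz => hfpf e he he1 z hz.1) hℓ hexp hcop W
          (fun z _ w hw => hWG z w hw) (fun e _ w hw => hWG e w hw)
          (fun z hz z' hz' w hw => hz.2 z' hz'.1 w hw) hC)
  exact key W (fun g _ w hw => hW g w hw) hfix

/-- **Frobenius fixed point formula for modules.** -/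
theorem frob_formula_module (U E : Subgroup G) [U.Normal] (hnil : Group.IsNilpotent U)
    (hfpf : ∀ e ∈ E, e ≠ 1 → ∀ u ∈ U, e * u = u * e → u = 1)
    {ℓ : ℕ} (hℓ : ℓ.Prime) (hexp : ∀ v : V, v ^ ℓ = 1) (hcop : ¬ ℓ ∣ Nat.card G) :
    Nat.card (fixIn (U ⊔ E) (⊤ : Subgroup V)) ^ Nat.card E * Nat.card V =
      Nat.card (fixIn E (⊤ : Subgroup V)) ^ Nat.card E *
        Nat.card (fixIn U (⊤ : Subgroup V)) := by
  set V₁ := fixIn U (⊤ : Subgroup V) with hV₁
  have hV₁inv : ∀ g : G, ∀ w ∈ V₁, g • w ∈ V₁ := by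
    rintro g w ⟨-, hw⟩
    refine ⟨Subgroup.mem_top _, fun u hu => ?_⟩
    have h1 : g⁻¹ * u * g ∈ U := by
      have := ‹U.Normal›.conj_mem u hu g⁻¹
      rwa [inv_inv] at this
    have h2 := hw _ h1
    have h3 : u • g • w = g • (g⁻¹ * u * g) • w := by simp [mul_smul]
    rw [h3, h2]
  have hcopG : (Nat.card G).Coprime (Nat.card V) := by
    have := coprime_card_of_exp (V := V) hℓ hexp hcop (⊤ : Subgroup G)
    rwa [Subgroup.card_top] at this
  obtain ⟨V₂, hV₂inv, hdisj, hsup⟩ := Cfsg.Agent.Lib.Helper90.maschke_elementary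
    (A := G) hℓ hexp hcopG V₁ hV₁inv
  have hE₁ : IsInv E V₁ := fun e _ w hw => hV₁inv e w hw
  have hE₂ : IsInv E V₂ := fun e _ w hw => hV₂inv e w hw
  have hcardV : Nat.card V = Nat.card V₁ * Nat.card V₂ := by
    rw [← card_sup_of_disjoint V₁ V₂ hdisj, hsup, Subgroup.card_top]
  have hfixE : Nat.card (fixIn E (⊤ : Subgroup V)) =
      Nat.card (fixIn E V₁) * Nat.card (fixIn E V₂) := by
    rw [← card_fixIn_sup E V₁ V₂ hE₁ hE₂ hdisj, hsup]
  have hfixUE : fixIn (U ⊔ E) (⊤ : Subgroup V) = fixIn E V₁ := by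
    ext v
    constructor
    · rintro ⟨-, hv⟩
      exact ⟨⟨Subgroup.mem_top _, fun u hu => hv u (Subgroup.mem_sup_left hu)⟩,
        fun e he => hv e (Subgroup.mem_sup_right he)⟩
    · rintro ⟨⟨-, hvU⟩, hvE⟩
      refine ⟨Subgroup.mem_top _, ?_⟩
      have hstab : U ⊔ E ≤ MulAction.stabilizer G v :=
        sup_le (fun u hu => hvU u hu) (fun e he => hvE e he)
      exact fun s hs => hstab hs
  have hV₂ : Nat.card V₂ = Nat.card (fixIn E V₂) ^ Nat.card E :=
    count_of_fix_trivial U E hnil hfpf hℓ hexp hcop V₂ hV₂inv (by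
      intro w hw hfix
      have h4 : w ∈ V₁ ⊓ V₂ := ⟨⟨Subgroup.mem_top _, hfix⟩, hw⟩
      rw [hdisj] at h4
      exact Subgroup.mem_bot.mp h4)
  rw [hfixUE, hcardV, hfixE, mul_pow, hV₂]
  ring

end

end Cfsg.Agent.Lib.Helper97.FrobCount
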